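import Cfsg.Agent.N2.Cl.Sz.Scott
import Cfsg.Agent.N2.Cl.Cyc.Vec
import Cfsg.Agent.H6.M11.Lin

/-!
# N2, size lemma: multiplicities of eigenvalues (helper96)

* `Mu q n u μ` : `μ i` is the multiplicity of `ζ ^ i` for `u ^ m = 1`; `exists_mu`, `exists_mu_End`;
* `card_le_cA_pow` : `|A| ≤ cA x ^ a` if `x ^ a` is central and `a` is a prime power;
* `Ts` : the eigenvalues on the range of an idempotent (used by the sharp size lemma).
-/

set_option autoImplicit false
set_option linter.unusedSectionVars false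
set_option maxHeartbeats 200000

namespace Cfsg.Agent.N2C.Sz

open Cfsg Cfsg.Agent.DS.Cl Module Matrix
open Cfsg.Agent.N2C.Cyc (cA cO cU)
open Cfsg.Agent.H6.M11 (sp isProj_sp sp_mul_sp sum_sp finrank_top_eq_sum)

theorem cA_map {A B : Type} [Ring A] [Ring B] (φ : A ≃+* B) (u : A) : cA (φ u) = cA u :=
  (Nat.card_congr (Equiv.subtypeEquiv φ.toEquiv fun a => by
    show _ ↔ φ a * φ u = φ u * φ a
    rw [← map_mul, ← map_mul, φ.injective.eq_iff])).symm

theorem cA_pos {A : Type} [Ring A] [Finite A] (u : A) : 0 < cA u :=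
  have : Nonempty {x : A // x * u = u * x} := ⟨⟨u, rfl⟩⟩
  Nat.card_pos

/-! ### the split case -/

section split

variable {L W : Type} [Field L] [AddCommGroup W] [Module L W] [FiniteDimensional L W] {T : End L W} {ζ : L} {m : ℕ}

theorem pow_apply_eig {c : L} {v : W} (h : T v = c • v) (k : ℕ) : (T ^ k) v = c ^ k • v := by
  induction k with
  | zero => rw [pow_zero, pow_zero, one_smul, End.one_apply]
  | succ k ih => rw [pow_succ, End.mul_apply, h, map_smul, ih, smul_smul, pow_succ']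

theorem eig_pow {c : L} (hT : T ^ m = 1) (hc : c ^ m = 1) {j : ℕ} (hj : j.Coprime m) :
    (T ^ j).eigenspace (c ^ j) = T.eigenspace c := by
  ext v
  rw [End.mem_eigenspace_iff, End.mem_eigenspace_iff]
  refine ⟨fun h => ?_, fun h => pow_apply_eig h j⟩
  obtain ⟨k, hk⟩ := exists_pow_eq_self_of_coprime (x := (T, c)) (hj.coprime_dvd_right (orderOf_dvd_of_pow_eq_one (Prod.ext hT hc)))
  have h1 := pow_apply_eig h k
  rwa [show (T ^ j) ^ k = T from congrArg Prod.fst hk, show (c ^ j) ^ k = c from congrArg Prod.snd hk] at h1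

theorem ext_sp (hζ : IsPrimitiveRoot ζ m) (hm : 0 < m) (hT : T ^ m = 1) {X Y : End L W}
    (h : ∀ b : Fin m, ∀ v ∈ T.eigenspace (ζ ^ (b : ℕ)), X v = Y v) : X = Y := by
  have : NeZero m := ⟨hm.ne'⟩
  rw [← mul_one X, ← mul_one Y, ← sum_sp (X := T) hζ hm, Finset.mul_sum, Finset.mul_sum]
  exact Finset.sum_congr rfl fun b _ => LinearMap.ext fun v =>
    h b _ ((isProj_sp hζ.neZero'.out (hζ.ne_zero hm.ne') hζ.pow_eq_one hT b).map_mem v)

theorem exists_glue (hζ : IsPrimitiveRoot ζ m) (hm : 0 < m) (hT : T ^ m = 1) (f : ∀ b : Fin m, End L (T.eigenspace (ζ ^ (b : ℕ)))) :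
    ∃ X : End L W, X * T = T * X ∧ ∀ (b : Fin m) (v : T.eigenspace (ζ ^ (b : ℕ))), X v = f b v := by
  have : NeZero m := ⟨hm.ne'⟩
  have hp := fun b : Fin m => isProj_sp hζ.neZero'.out (hζ.ne_zero hm.ne') hζ.pow_eq_one hT b
  let X : End L W := ∑ b : Fin m, (T.eigenspace _).subtype ∘ₗ f b ∘ₗ (hp b).codRestrict
  have h1 : ∀ (b : Fin m) (v : T.eigenspace (ζ ^ (b : ℕ))), X v = f b v := fun b v => by
    rw [LinearMap.sum_apply, Finset.sum_eq_single b (fun c _ hc => ?_) fun h => absurd (Finset.mem_univ b) h]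
    · exact congrArg (fun w => (f b w : W)) ((hp b).codRestrict_apply_cod v)
    · have h2 : (hp c).codRestrict v = 0 := Subtype.ext (by
        rw [LinearMap.IsProj.codRestrict_apply, ← (hp b).map_id v v.2, ← End.mul_apply,
          sp_mul_sp hζ hm hT c.2 b.2 fun h => hc (Fin.ext h)]
        rfl)
      rw [LinearMap.comp_apply, LinearMap.comp_apply, h2, map_zero, map_zero]
  refine ⟨X, ext_sp hζ hm hT fun b v hv => ?_, h1⟩
  rw [End.mul_apply, End.mul_apply, End.mem_eigenspace_iff.1 hv, map_smul, h1 b ⟨v, hv⟩, End.mem_eigenspace_iff.1 (f b _).2]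

theorem exists_trans [NeZero m] (hζ : IsPrimitiveRoot ζ m) (hT : T ^ m = 1) {k : ℕ} {v w : W} (h0 : v ≠ 0) (hv : T v = ζ ^ k • v)
    (hw : T w = ζ ^ k • w) : ∃ X : End L W, X * T = T * X ∧ X v = w := by
  obtain ⟨φ, hφ⟩ := Module.Projective.exists_dual_eq_one L h0
  have h1 := hζ.ne_zero (NeZero.ne m)
  refine ⟨φ.smulRight w * sp m ζ T k, ?_, ?_⟩
  · rw [mul_assoc, ← show T * sp m ζ T k = sp m ζ T k * T from H6.M11.comm_av ((Commute.refl T).smul_right _),
      H6.M11.mul_sp h1 hζ.pow_eq_one hT]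
    exact LinearMap.ext fun x => by simp [hw, smul_smul, mul_comm]
  · rw [End.mul_apply, (isProj_sp hζ.neZero'.out h1 hζ.pow_eq_one hT k).map_id v (End.mem_eigenspace_iff.2 hv),
      LinearMap.smulRight_apply, hφ, one_smul]

theorem cA_split [Finite L] (hζ : IsPrimitiveRoot ζ m) (hm : 0 < m) (hT : T ^ m = 1) :
    cA T = Nat.card L ^ ∑ b : Fin m, finrank L (T.eigenspace (ζ ^ (b : ℕ))) ^ 2 := by
  rw [← Finset.prod_pow_eq_pow_sum, ← Finset.prod_congr rfl fun b _ => SB.C2.card_end L _, ← Nat.card_pi]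
  refine Nat.card_congr (Equiv.ofBijective (fun X b => X.1.restrict fun v hv => End.mem_eigenspace_iff.2 (by
    rw [← End.mul_apply, ← X.2, End.mul_apply, End.mem_eigenspace_iff.1 hv, map_smul])) ⟨fun X Y e => ?_, fun f => ?_⟩)
  · exact Subtype.ext (ext_sp hζ hm hT fun b v hv => congrArg (fun f => (f b ⟨v, hv⟩ : W)) e)
  · obtain ⟨X, h1, h2⟩ := exists_glue hζ hm hT f
    exact ⟨⟨X, h1⟩, funext fun b => LinearMap.ext fun v => Subtype.ext (h2 b v)⟩

end split

/-! ### matrices -/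

section mat

variable {K L ι : Type} [Field K] [Field L] [Fintype ι] [DecidableEq ι]

theorem rank_map (f : K →+* L) (M : Matrix ι ι K) : (M.map f).rank = M.rank := by
  classical
  obtain ⟨T, T', D, rfl⟩ := Matrix.Pivot.exists_list_transvec_mul_diagonal_mul_list_transvec M
  have h1 : ∀ T : List (TransvectionStruct ι K), IsUnit (T.map TransvectionStruct.toMatrix).prod.det := fun T => by
    rw [TransvectionStruct.det_toMatrix_prod]; exact isUnit_one
  have h2 : ∀ T : List (TransvectionStruct ι K), IsUnit ((T.map TransvectionStruct.toMatrix).prod.map f).det := fun T => by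
    rw [← RingHom.mapMatrix_apply, ← RingHom.map_det]; exact (h1 T).map f
  rw [Matrix.map_mul, Matrix.map_mul, rank_mul_eq_left_of_isUnit_det _ _ (h1 _), rank_mul_eq_right_of_isUnit_det _ _ (h1 _),
    rank_mul_eq_left_of_isUnit_det _ _ (h2 _), rank_mul_eq_right_of_isUnit_det _ _ (h2 _), diagonal_map (map_zero f),
    rank_diagonal, rank_diagonal]
  simp

/-- the multiplicity of an eigenvalue -/
noncomputable def ml (M : Matrix ι ι L) (c : L) : ℕ := finrank L (End.eigenspace (toLinAlgEquiv' M) c)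

theorem ml_add (M : Matrix ι ι L) (c : L) : (M - c • 1).rank + ml M c = Fintype.card ι := by
  have h1 : toLinAlgEquiv' M - c • 1 = (M - c • 1).mulVecLin := LinearMap.ext fun v => by
    simp [toLinAlgEquiv'_apply]
  rw [ml, End.eigenspace_def, h1, ← Module.finrank_fintype_fun_eq_card L]
  exact LinearMap.finrank_range_add_finrank_ker _

theorem ml_congr {M : Matrix ι ι L} {N : Matrix ι ι K} {c : L} {d : K} (h : (M - c • 1).rank = (N - d • 1).rank) : ml M c = ml N d := by
  have h1 := ml_add M c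
  have h2 := ml_add N d
  omega

theorem ml_map (f : K →+* L) (M : Matrix ι ι K) (c : K) : ml (M.map f) (f c) = ml M c :=
  ml_congr (by rw [← rank_map f, ← RingHom.mapMatrix_apply, ← RingHom.mapMatrix_apply, map_sub]; congr 2; ext i j; simp [one_apply, apply_ite f])

theorem ml_transpose (M : Matrix ι ι L) (c : L) : ml Mᵀ c = ml M c :=
  ml_congr (by rw [← rank_transpose, transpose_sub, transpose_transpose, transpose_smul, transpose_one])

theorem ml_conj {M N g : Matrix ι ι L} (hg : IsUnit g) (h : g * M = N * g) (c : L) : ml M c = ml N c :=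
  ml_congr (by
    rw [← rank_mul_eq_right_of_isUnit_det g _ ((isUnit_iff_isUnit_det _).1 hg),
      ← rank_mul_eq_left_of_isUnit_det g (N - _) ((isUnit_iff_isUnit_det _).1 hg), mul_sub, sub_mul, h, mul_smul_comm,
      smul_mul_assoc, mul_one, one_mul])

theorem ml_inv {M N J : Matrix ι ι L} (hJ : J.det ≠ 0) (h : M * J * N = J) {c d : L} (hc : d * c = 1) : ml N d = ml M c := by
  have h1 : (M * J).det ≠ 0 := fun h0 => hJ (by rw [← h, det_mul, h0, zero_mul])
  refine ml_congr ?_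
  rw [← rank_mul_eq_right_of_det_ne_zero _ _ h1, ← rank_mul_eq_left_of_det_ne_zero J (M - _) hJ,
    ← rank_smul_of_mem_nonZeroDivisors (c := -d) ((M - _) * J) (mem_nonZeroDivisors_of_ne_zero (neg_ne_zero.2 (left_ne_zero_of_mul_eq_one hc))),
    mul_sub, h, sub_mul, smul_sub, mul_smul_comm, smul_mul_assoc, smul_smul, neg_mul, hc, mul_one, one_mul, neg_smul, neg_smul,
    one_smul, neg_sub_neg]

theorem ml_ne_zero {M : Matrix ι ι L} {c : L} : ml M c ≠ 0 ↔ ∃ v, v ≠ 0 ∧ M *ᵥ v = c • v := by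
  rw [ml, Ne, Submodule.finrank_eq_zero, ← Ne, Submodule.ne_bot_iff]
  exact exists_congr fun v => and_comm.trans (and_congr_right fun _ => End.mem_eigenspace_iff)

theorem ml_pow {M : Matrix ι ι L} {c : L} {m j : ℕ} (hM : M ^ m = 1) (hc : c ^ m = 1) (hj : j.Coprime m) :
    ml (M ^ j) (c ^ j) = ml M c := by
  rw [ml, map_pow, eig_pow (by rw [← map_pow, hM, map_one]) hc hj, ml]

theorem cA_toLin (M : Matrix ι ι L) : cA (toLinAlgEquiv' M : End L (ι → L)) = cA M :=
  cA_map (toLinAlgEquiv' (R := L) (n := ι)).toRingEquiv M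

end mat

/-! ### base change -/

section bc

variable {A K ι : Type} [Ring A] [Field K] [Fintype ι] [DecidableEq ι] (e : A ≃+* Matrix ι ι K) (L : Type) [Field L] [Algebra K L]

/-- extension of scalars -/
def ex : A →+* Matrix ι ι L := (algebraMap K L).mapMatrix.comp e.toRingHom

theorem ex_apply (a : A) : ex e L a = (e a).map (algebraMap K L) := rfl

theorem ex_inj : Function.Injective (ex e L) := fun _ _ h =>
  e.injective (Matrix.map_injective (algebraMap K L).injective h)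

variable {e L} {κ : Type} [Fintype κ] (b : Basis κ K L)

theorem bc_inj {x y : κ → A} (h : ∑ k, b k • ex e L (x k) = ∑ k, b k • ex e L (y k)) : x = y := by
  refine funext fun k => e.injective (Matrix.ext fun i j => ?_)
  have h1 := congrFun (congrFun h i) j
  simp only [Matrix.sum_apply, Matrix.smul_apply, ex_apply, map_apply, smul_eq_mul, mul_comm (b _), ← Algebra.smul_def] at h1
  exact congrFun (b.equivFun.symm.injective (a₁ := fun k => e (x k) i j) (a₂ := fun k => e (y k) i j) (by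
    rw [Basis.equivFun_symm_apply, Basis.equivFun_symm_apply, h1])) k

theorem bc_surj (X : Matrix ι ι L) : ∃ x : κ → A, X = ∑ k, b k • ex e L (x k) := by
  refine ⟨fun k => e.symm (X.map fun c => b.repr c k), Matrix.ext fun i j => ?_⟩
  simp only [Matrix.sum_apply, Matrix.smul_apply, ex_apply, map_apply, smul_eq_mul, mul_comm (b _), ← Algebra.smul_def,
    RingEquiv.apply_symm_apply, b.sum_repr]

theorem bc_comm {x : κ → A} {u : A} :
    (∑ k, b k • ex e L (x k)) * ex e L u = ex e L u * ∑ k, b k • ex e L (x k) ↔ ∀ k, x k * u = u * x k := by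
  simp only [Finset.sum_mul, Finset.mul_sum, smul_mul_assoc, mul_smul_comm, ← map_mul]
  exact ⟨fun h => congrFun (bc_inj b h), fun h => Finset.sum_congr rfl fun k _ => by rw [h k]⟩

variable [FiniteDimensional K L] {u : A}

theorem cA_ex (u : A) : cA (ex e L u) = cA u ^ finrank K L := by
  let b := finBasis K L
  rw [← Nat.card_fin (finrank K L), cA, cA, ← Nat.card_fun]
  refine (Nat.card_congr (Equiv.ofBijective (fun x => ⟨∑ k, b k • ex e L (x k).1, (bc_comm b).2 fun k => (x k).2⟩)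
    ⟨fun x y h => funext fun k => Subtype.ext (congrFun (bc_inj b (Subtype.mk.inj h)) k), fun X => ?_⟩)).symm
  obtain ⟨x, hx⟩ := bc_surj (e := e) b X.1
  exact ⟨fun k => ⟨x k, (bc_comm b).1 (hx ▸ X.2) k⟩, Subtype.ext hx.symm⟩

theorem comm_ex {z : A} (hz : ∀ x, x * u = u * x → z * x = x * z) {X : Matrix ι ι L} (hX : X * ex e L u = ex e L u * X) :
    X * ex e L z = ex e L z * X := by
  obtain ⟨x, rfl⟩ := bc_surj (e := e) (finBasis K L) X
  exact (bc_comm _).2 fun k => (hz _ ((bc_comm _).1 hX k)).symm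

end bc

/-! ### multiplicities -/

theorem pow_val_mul {M : Type} [Monoid M] {ζ : M} {m : ℕ} [NeZero m] (h : ζ ^ m = 1) (k : ℕ) (i : ZMod m) :
    ζ ^ ((k : ZMod m) * i).val = (ζ ^ i.val) ^ k := by
  rw [ZMod.val_mul, ← pow_eq_pow_mod _ h, ZMod.val_natCast, pow_mul, ← pow_eq_pow_mod _ h, ← pow_mul, mul_comm, pow_mul]

theorem pow_val_neg {M : Type} [Monoid M] {ζ : M} {m : ℕ} [NeZero m] (h : ζ ^ m = 1) (i : ZMod m) :
    ζ ^ i.val * ζ ^ (-i).val = 1 := by
  rw [← pow_add, pow_eq_pow_mod _ h, ← ZMod.val_add, add_neg_cancel, ZMod.val_zero, pow_zero]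

theorem pow_val_pow {M : Type} [Monoid M] {ζ : M} {m : ℕ} (h : ζ ^ m = 1) (k : ℕ) : (ζ ^ k) ^ m = 1 := by
  rw [← pow_mul, mul_comm, pow_mul, h, one_pow]

/-- `μ i` is the multiplicity of the eigenvalue `ζ ^ i` of `u` -/
structure Mu {A : Type} [Ring A] (q n : ℕ) {m : ℕ} [NeZero m] (u : A) (μ : ZMod m → ℕ) : Prop where
  sum : ∑ i, μ i = n
  card : cA u = q ^ ∑ i, μ i ^ 2
  frob : ∀ i, μ (q * i) = μ i
  conj : ∀ (g : A) (j : ℕ), IsUnit g → g * u = u ^ j * g → j.Coprime m → ∀ i, μ (j * i) = μ i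

section mu

variable {A K ι : Type} [Ring A] [Field K] [Fintype K] [Fintype ι] [DecidableEq ι] (e : A ≃+* Matrix ι ι K) {L : Type} [Field L]
  [Algebra K L] [FiniteDimensional K L] (ζ : L) (m : ℕ) [NeZero m]

/-- the multiplicities -/
noncomputable def mu (u : A) (i : ZMod m) : ℕ := ml (ex e L u) (ζ ^ i.val)

open Classical in
/-- the eigenvalues of `u` on the fixed space of `f` -/
noncomputable def Ts (u f : A) : Finset (ZMod m) :=
  Finset.univ.filter fun i => ∃ v, v ≠ 0 ∧ ex e L f *ᵥ v = v ∧ ex e L u *ᵥ v = ζ ^ i.val • v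

variable {e ζ m} {u f g : A} {i : ZMod m}

theorem mem_Ts : i ∈ Ts e ζ m u f ↔ ∃ v, v ≠ 0 ∧ ex e L f *ᵥ v = v ∧ ex e L u *ᵥ v = ζ ^ i.val • v := by
  simp only [Ts, Finset.mem_filter, Finset.mem_univ, true_and]

theorem ex_frob (a : A) : (ex e L a).map (FiniteField.frobeniusAlgHom K L : L →+* L) = ex e L a :=
  Matrix.ext fun _ _ => (FiniteField.frobeniusAlgHom K L).commutes _

theorem mu_mu (hζ : IsPrimitiveRoot ζ m) (hu : u ^ m = 1) : Mu (Fintype.card K) (Fintype.card ι) u (mu e ζ m u) := by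
  have : Finite L := Module.finite_of_finite K
  have h1 : ex e L u ^ m = 1 := by rw [← map_pow, hu, map_one]
  have h2 : toLinAlgEquiv' (ex e L u) ^ m = 1 := by rw [← map_pow, h1, map_one]
  refine ⟨?_, ?_, fun i => ?_, fun g j hg h hj i => ?_⟩
  · obtain ⟨m, rfl⟩ := Nat.exists_eq_succ_of_ne_zero (NeZero.ne m)
    exact (finrank_top_eq_sum hζ m.succ_pos h2).symm.trans (Module.finrank_fintype_fun_eq_card L)
  · obtain ⟨m, rfl⟩ := Nat.exists_eq_succ_of_ne_zero (NeZero.ne m)
    have h3 := cA_split hζ m.succ_pos h2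
    rw [cA_toLin, cA_ex,
      Module.natCard_eq_pow_finrank (K := K) (V := L), ← pow_mul, mul_comm, pow_mul, Nat.card_eq_fintype_card] at h3
    exact Nat.pow_left_injective finrank_pos.ne' h3
  · rw [mu, mu, pow_val_mul hζ.pow_eq_one, ← ml_map (FiniteField.frobeniusAlgHom K L : L →+* L) _ (ζ ^ i.val), ex_frob]
    rfl
  · rw [mu, mu, pow_val_mul hζ.pow_eq_one, ml_conj (N := ex e L u ^ j) (hg.map (ex e L)) (by rw [← map_pow, ← map_mul, ← map_mul, h]),
      ml_pow h1 (pow_val_pow hζ.pow_eq_one _) hj]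

theorem mu_eq {c : K} (h : algebraMap K L c = ζ ^ i.val) : mu e ζ m u i = ml (e u) c := by
  rw [mu, ← h, ex_apply, ml_map]

theorem mu_tw (hζ : ζ ^ m = 1) (σ : L →+* L) (τ : K →+* K) {k : ℕ} (hσ : ∀ x, σ x = x ^ k) (hτ : ∀ x, τ x = x ^ k) {J : Matrix ι ι K}
    (hJ : J.det ≠ 0) (h : (e u)ᵀ * J * (e u).map τ = J) (i : ZMod m) : mu e ζ m u (-(k * i)) = mu e ζ m u i := by
  have h1 : (ex e L u)ᵀ * J.map (algebraMap K L) * (ex e L u).map σ = J.map (algebraMap K L) := by
    conv_rhs => rw [← h, Matrix.map_mul, Matrix.map_mul]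
    congr 1
    ext i j
    simp only [ex_apply, map_apply, hσ, hτ, map_pow]
  rw [mu, mu, ← ml_transpose, ← ml_inv (by rw [← RingHom.mapMatrix_apply, ← RingHom.map_det]; exact (map_ne_zero _).2 hJ) h1
    (pow_val_neg hζ _), pow_val_mul hζ, ← hσ, ml_map]

theorem mu_ne_zero (h : i ∈ Ts e ζ m u f) : mu e ζ m u i ≠ 0 :=
  let ⟨v, h1, _, h2⟩ := mem_Ts.1 h
  ml_ne_zero.2 ⟨v, h1, h2⟩

theorem Ts_mono (h : g * f = f) : Ts e ζ m u f ⊆ Ts e ζ m u g := fun _ hi =>
  let ⟨v, h1, h2, h3⟩ := mem_Ts.1 hi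
  mem_Ts.2 ⟨v, h1, by rw [← h2, mulVec_mulVec, ← map_mul, h], h3⟩

theorem Ts_frob (hζ : ζ ^ m = 1) (hi : i ∈ Ts e ζ m u f) : (Fintype.card K : ZMod m) * i ∈ Ts e ζ m u f := by
  obtain ⟨v, h1, h2, h3⟩ := mem_Ts.1 hi
  let σ : L →+* L := FiniteField.frobeniusAlgHom K L
  have h4 : ∀ a : A, ex e L a *ᵥ (σ ∘ v) = σ ∘ (ex e L a *ᵥ v) := fun a => funext fun j => by
    rw [Function.comp_apply, RingHom.map_mulVec, ex_frob]
  refine mem_Ts.2 ⟨σ ∘ v, fun h => h1 (funext fun j => (map_eq_zero σ).1 (congrFun h j)), by rw [h4, h2], ?_⟩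
  rw [h4, h3, pow_val_mul hζ]
  exact funext fun j => map_mul σ _ _

theorem Ts_pow (hζ : IsPrimitiveRoot ζ m) (hi : i ∈ Ts e ζ m u f) {k : ℕ} (h : u ^ k * f = f) : (k : ZMod m) * i = 0 := by
  obtain ⟨v, h1, h2, h3⟩ := mem_Ts.1 hi
  have h4 := pow_apply_eig (T := toLinAlgEquiv' (ex e L u)) h3 k
  rw [← map_pow, ← map_pow, toLinAlgEquiv'_apply, ← h2, mulVec_mulVec, ← map_mul, h, h2, eq_comm, ← sub_eq_zero] at h4
  nth_rewrite 2 [← one_smul L v] at h4
  rw [← sub_smul, smul_eq_zero, sub_eq_zero, ← pow_mul, hζ.pow_eq_one_iff_dvd, ← ZMod.natCast_eq_zero_iff] at h4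
  simpa [mul_comm] using h4.resolve_right h1

theorem Ts_zero {w : A} (h : f = w * (u - 1)) : 0 ∉ Ts e ζ m u f := fun hi => by
  obtain ⟨v, h1, h2, h3⟩ := mem_Ts.1 hi
  rw [ZMod.val_zero, pow_zero, one_smul] at h3
  rw [h, map_mul, ← mulVec_mulVec, map_sub, sub_mulVec, h3, map_one, one_mulVec, sub_self, mulVec_zero] at h2
  exact h1 h2.symm

theorem Ts_nonempty (hζ : IsPrimitiveRoot ζ m) (hu : u ^ m = 1) (h0 : f ≠ 0) (hf : f * f = f) (hc : f * u = u * f) :
    (Ts e ζ m u f).Nonempty := by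
  obtain ⟨m, rfl⟩ := Nat.exists_eq_succ_of_ne_zero (NeZero.ne m)
  by_contra h
  refine h0 (ex_inj e L (toLinAlgEquiv'.injective (ext_sp (T := toLinAlgEquiv' (ex e L u)) hζ m.succ_pos
    (by rw [← map_pow, ← map_pow, hu, map_one, map_one]) fun b v hv => ?_)))
  rw [map_zero, map_zero]
  by_contra h1
  refine h ⟨b, mem_Ts.2 ⟨ex e L f *ᵥ v, h1, by rw [mulVec_mulVec, ← map_mul, hf], ?_⟩⟩
  rw [mulVec_mulVec, ← map_mul, ← hc, map_mul, ← mulVec_mulVec, show ex e L u *ᵥ v = _ from End.mem_eigenspace_iff.1 hv, mulVec_smul]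
  rfl

theorem Ts_disj (hζ : IsPrimitiveRoot ζ m) (hu : u ^ m = 1) (hf : ∀ x, x * u = u * x → f * x = x * f) (h : f * g = 0) :
    Disjoint (Ts e ζ m u f) (Ts e ζ m u g) := by
  refine Finset.disjoint_left.2 fun i hi hj => ?_
  obtain ⟨v, h1, h2, h3⟩ := mem_Ts.1 hi
  obtain ⟨w, h4, h5, h6⟩ := mem_Ts.1 hj
  obtain ⟨X, h7, h8⟩ := exists_trans (T := toLinAlgEquiv' (ex e L u)) hζ (by rw [← map_pow, ← map_pow, hu, map_one, map_one]) h1 h3 h6
  obtain ⟨X, rfl⟩ := toLinAlgEquiv'.surjective X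
  have h9 : X *ᵥ v = w := h8
  have h10 := comm_ex (e := e) hf (X := X) (toLinAlgEquiv'.injective (by rw [map_mul, map_mul]; exact h7))
  have h11 : ex e L f *ᵥ w = w := by rw [← h9, mulVec_mulVec, ← h10, ← mulVec_mulVec, h2]
  exact h4 (by rw [← h11, ← h5, mulVec_mulVec, ← map_mul, h, map_zero, zero_mulVec])

end mu

theorem exists_root (K : Type) [Field K] {m : ℕ} (hm : (m : K) ≠ 0) :
    ∃ (L : Type) (_ : Field L) (_ : Algebra K L) (_ : FiniteDimensional K L) (ζ : L), IsPrimitiveRoot ζ m :=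
  have : NeZero (m : K) := ⟨hm⟩
  have : NeZero m := ⟨fun h => hm (by rw [h, Nat.cast_zero])⟩
  ⟨CyclotomicField m K, inferInstance, inferInstance, IsCyclotomicExtension.finiteDimensional {m} K _, _,
    IsCyclotomicExtension.zeta_spec m K _⟩

/-- **multiplicities**, matrix rings -/
theorem exists_mu {A K ι : Type} [Ring A] [Field K] [Fintype K] [Fintype ι] [DecidableEq ι] (e : A ≃+* Matrix ι ι K) {m : ℕ} [NeZero m]
    (hm : (m : K) ≠ 0) {u : A} (hu : u ^ m = 1) :
    ∃ μ : ZMod m → ℕ, Mu (Fintype.card K) (Fintype.card ι) u μ ∧ μ 0 = ml (e u) 1 := by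
  obtain ⟨L, _, _, _, ζ, hζ⟩ := exists_root K hm
  exact ⟨_, mu_mu hζ hu, mu_eq (by rw [ZMod.val_zero, pow_zero, map_one])⟩

theorem ml_toMatrix {K V ι : Type} [Field K] [AddCommGroup V] [Module K V] [Fintype ι] [DecidableEq ι] (b : Basis ι K V) (u : End K V)
    (c : K) : ml (LinearMap.toMatrix b b u) c = finrank K (LinearMap.ker (u - c • 1)) := by
  have := Module.Finite.of_basis b
  have h1 := ml_add (LinearMap.toMatrix b b u) c
  have h2 := LinearMap.finrank_range_add_finrank_ker (u - c • 1)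
  rw [rank_eq_finrank_range_toLin _ b b, map_sub, map_smul, toLin_toMatrix, toLin_one, ← finrank_eq_card_basis b] at h1
  exact Nat.add_left_cancel (h1.trans h2.symm)

/-- **multiplicities**, endomorphisms -/
theorem exists_mu_End {K V : Type} [Field K] [Fintype K] [AddCommGroup V] [Module K V] [FiniteDimensional K V] {m : ℕ} [NeZero m]
    (hm : (m : K) ≠ 0) {u : End K V} (hu : u ^ m = 1) :
    ∃ μ : ZMod m → ℕ, Mu (Fintype.card K) (finrank K V) u μ ∧ μ 0 = finrank K (LinearMap.ker (u - 1)) := by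
  obtain ⟨μ, h1, h2⟩ := exists_mu (LinearMap.toMatrixAlgEquiv (finBasis K V)).toRingEquiv hm hu
  rw [Fintype.card_fin] at h1
  exact ⟨μ, h1, h2.trans ((ml_toMatrix _ u 1).trans (by rw [one_smul]))⟩

/-- a group of units that leaves `μ` invariant -/
theorem sum_sq_le {r : ℕ} [Fact r.Prime] (G : Subgroup (ZMod r)ˣ) {μ : ZMod r → ℕ} (h : ∀ g ∈ G, ∀ i, μ (g * i) = μ i) :
    Nat.card G * ∑ i ∈ Finset.univ.erase 0, μ i ^ 2 ≤ (∑ i ∈ Finset.univ.erase 0, μ i) ^ 2 := by
  classical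
  have := Fintype.ofFinite G
  rw [sq, Finset.mul_sum, Finset.mul_sum]
  refine Finset.sum_le_sum fun i hi => ?_
  have h0 := Finset.ne_of_mem_erase hi
  rw [sq, ← mul_assoc]
  refine Nat.mul_le_mul_right _ (le_of_eq_of_le ?_ (Finset.sum_le_sum_of_subset
    (s := Finset.univ.image fun g : G => ((g : (ZMod r)ˣ) : ZMod r) * i) fun j hj => ?_))
  · rw [Finset.sum_image fun a _ b _ k => Subtype.ext (Units.ext (mul_right_cancel₀ h0 k)),
      Finset.sum_congr rfl fun g _ => h _ g.2 i, Finset.sum_const, Nat.card_eq_fintype_card]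
    rfl
  · obtain ⟨g, -, rfl⟩ := Finset.mem_image.1 hj
    exact Finset.mem_erase.2 ⟨mul_ne_zero (Units.ne_zero _) h0, Finset.mem_univ _⟩

/-! ### lower bounds -/

theorem card_le_pow {W : Type} [AddCommGroup W] [Finite W] (φ : AddMonoid.End W) (a : ℕ) (X : AddSubgroup W)
    (h : ∀ w ∈ X, (φ ^ a) w = 0) : Nat.card X ≤ Nat.card {w // φ w = 0} ^ a := by
  induction a generalizing X with
  | zero => rw [(AddSubgroup.eq_bot_iff_forall X).2 h, AddSubgroup.card_bot, pow_zero]
  | succ a ih =>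
    let ψ : X →+ W := AddMonoidHom.comp φ X.subtype
    rw [← ψ.ker.index_mul_card, AddSubgroup.index_ker, pow_succ]
    refine Nat.mul_le_mul (ih _ ?_) (Nat.card_le_card_of_injective (fun w => ⟨w.1.1, w.2⟩) fun _ _ k =>
      Subtype.ext (Subtype.ext (Subtype.mk.inj k)))
    rintro _ ⟨w, rfl⟩
    exact (congrArg (fun f : AddMonoid.End W => f w) (pow_succ φ a)).symm.trans (h w w.2)

/-- `x ^ p ^ k` central in characteristic `p` -/
theorem card_le_cA_char {A : Type} [Ring A] [Finite A] {p k : ℕ} (hp : p.Prime) (h0 : (p : A) = 0) {x : A}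
    (hx : x ^ p ^ k ∈ Subring.center A) : Nat.card A ≤ cA x ^ p ^ k := by
  let l : AddMonoid.End A := AddMonoid.End.mulLeft x
  let r : AddMonoid.End A := AddMonoidHom.mulRight x
  have h1 : Commute (r - l) l := (show Commute r l from AddMonoidHom.ext fun a => (mul_assoc x a x).trans rfl).sub_left (Commute.refl l)
  obtain ⟨s, hs⟩ := h1.exists_add_pow_prime_pow_eq hp k
  have h2 : (p : AddMonoid.End A) = 0 := AddMonoidHom.ext fun a =>
    (AddMonoid.End.natCast_apply p a).trans (by rw [nsmul_eq_mul, h0, zero_mul]; rfl)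
  have h4 : ∀ j a, (l ^ j) a = x ^ j * a := fun j => by
    induction j with
    | zero => exact fun a => by rw [pow_zero, pow_zero, one_mul]; rfl
    | succ j ih => exact fun a => by rw [pow_succ, pow_succ, mul_assoc, ← ih]; rfl
  have h3 : ∀ j a, (r ^ j) a = a * x ^ j := fun j => by
    induction j with
    | zero => exact fun a => by rw [pow_zero, pow_zero, mul_one]; rfl
    | succ j ih => exact fun a => by rw [pow_succ, pow_succ', ← mul_assoc, ← ih]; rfl
  rw [sub_add_cancel, h2, zero_mul, zero_mul, zero_mul, add_zero, ← sub_eq_iff_eq_add] at hs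
  refine AddSubgroup.card_top.ge.trans ((card_le_pow (r - l) (p ^ k) ⊤ fun w _ => ?_).trans_eq
    (congrArg (· ^ p ^ k) (Nat.card_congr (Equiv.subtypeEquivRight fun _ => sub_eq_zero))))
  rw [← hs]
  exact sub_eq_zero.2 ((h3 _ w).trans ((cen_comm hx w).trans (h4 _ w).symm))

theorem cA_smul {L ι : Type} [Field L] [Fintype ι] [DecidableEq ι] {c : L} (hc : c ≠ 0) (M : Matrix ι ι L) : cA (c • M) = cA M :=
  Nat.card_congr (Equiv.subtypeEquivRight fun X => by rw [mul_smul_comm, smul_mul_assoc, (smul_right_injective _ hc).eq_iff])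

/-- `x ^ a` scalar, `a` prime to the characteristic -/
theorem card_le_cA_cop {A K ι : Type} [Ring A] [Field K] [Finite K] [Fintype ι] [DecidableEq ι] (e : A ≃+* Matrix ι ι K) {a : ℕ}
    (ha : (a : K) ≠ 0) {x : A} {c : K} (hc : c ≠ 0) (hx : e x ^ a = c • 1) : Nat.card A ≤ cA x ^ a := by
  have : NeZero a := ⟨fun h => ha (by rw [h, Nat.cast_zero])⟩
  let f : Polynomial K := Polynomial.X ^ a - Polynomial.C c
  let L := f.SplittingField
  have : Finite L := Module.finite_of_finite K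
  have := Fintype.ofFinite L
  obtain ⟨d, hd⟩ := (Polynomial.SplittingField.splits f).exists_eval_eq_zero (by
    rw [Polynomial.degree_map, Polynomial.degree_X_pow_sub_C (NeZero.pos a)]; exact Nat.cast_ne_zero.2 (NeZero.ne a))
  have h1 : d ^ a = algebraMap K L c := by simpa [f, sub_eq_zero] using hd
  have h2 : d ^ a ≠ 0 := h1 ▸ (map_ne_zero _).2 hc
  obtain ⟨μ, hμ, -⟩ := exists_mu (RingEquiv.refl (Matrix ι ι L)) (m := a) (u := d⁻¹ • ex e L x)
    (by rw [← map_natCast (algebraMap K L)]; exact (map_ne_zero _).2 ha) (by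
      have h3 : ex e L x ^ a = algebraMap K L c • 1 := by
        rw [← map_pow, ex_apply, map_pow, hx]
        ext i j
        simp [one_apply, apply_ite (algebraMap K L)]
      rw [smul_pow, h3, smul_smul, ← h1, inv_pow, inv_mul_cancel₀ h2, one_smul])
  have h3 := hμ.card
  rw [cA_smul (inv_ne_zero (ne_zero_pow (NeZero.ne a) h2)), cA_ex, ← Nat.card_eq_fintype_card,
    Module.natCard_eq_pow_finrank (K := K) (V := L), ← pow_mul, mul_comm, pow_mul] at h3
  have h4 := sq_sum_le_card_mul_sum_sq (s := Finset.univ) (f := μ)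
  rw [hμ.sum, Finset.card_univ, ZMod.card] at h4
  rw [Nat.pow_left_injective finrank_pos.ne' h3, Nat.card_congr e.toEquiv, Module.natCard_eq_pow_finrank (K := K), finrank_matrix,
    finrank_self, mul_one, ← pow_mul, ← sq, mul_comm]
  exact Nat.pow_le_pow_right Nat.card_pos h4

/-- **lower bound** : `x ^ a` central, `a` a prime power -/
theorem card_le_cA_pow {A K ι : Type} [Ring A] [Field K] [Finite K] [Fintype ι] [DecidableEq ι] (e : A ≃+* Matrix ι ι K) {s k : ℕ}
    (hs : s.Prime) {x : A} (h : IsUnit x) (hx : x ^ s ^ k ∈ Subring.center A) : Nat.card A ≤ cA x ^ s ^ k := by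
  have : Finite A := Finite.of_equiv _ e.symm.toEquiv
  by_cases h0 : (s : K) = 0
  · exact card_le_cA_char hs (e.injective (by rw [map_natCast, map_zero, ← map_natCast (algebraMap K _), h0, map_zero])) hx
  obtain ⟨c, hc⟩ : e (x ^ s ^ k) ∈ Set.range (Matrix.scalar ι) := Matrix.mem_range_scalar_iff_commute_single'.2 fun i j => by
    obtain ⟨z, hz⟩ := e.surjective (Matrix.single i j 1)
    exact hz ▸ Commute.map (Subring.mem_center_iff.1 hx z) e
  by_cases h1 : c = 0
  · rw [h1, map_zero, eq_comm, map_eq_zero_iff _ e.injective] at hc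
    have := (isUnit_zero_iff.1 (hc ▸ h.pow _) |> subsingleton_of_zero_eq_one : Subsingleton A)
    exact (Finite.card_le_one_iff_subsingleton.2 this).trans (Nat.pow_pos (cA_pos x))
  exact card_le_cA_cop e (by rw [Nat.cast_pow]; exact pow_ne_zero _ h0) h1 (by rw [← map_pow, ← hc, scalar_apply, smul_one_eq_diagonal])

/-- the same for endomorphisms -/
theorem le_cA_End {K V : Type} [Field K] [Finite K] [AddCommGroup V] [Module K V] [FiniteDimensional K V] {s k : ℕ} (hs : s.Prime)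
    {x : End K V} (h : IsUnit x) (hx : x ^ s ^ k ∈ Subring.center (End K V)) : Nat.card K ^ (finrank K V ^ 2) ≤ cA x ^ s ^ k :=
  (SB.C2.card_end K V).ge.trans (card_le_cA_pow (LinearMap.toMatrixAlgEquiv (finBasis K V)).toRingEquiv hs h hx)

end Cfsg.Agent.N2C.Sz
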