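import Cfsg.Agent.N2.Cl.Sz.Main

/-!
# N2, size lemma: arbitrary elements of unitary groups (helper96)

`nU_le_rad` : Cayley transform on the Jacobson radical; `size_U_all` : `cU u * q ^ n ≤ q ^ d * (q + 1) ^ n`.
-/

set_option autoImplicit false
set_option linter.unusedSectionVars false
set_option maxHeartbeats 400000

namespace Cfsg.Agent.N2C.Sz

open Cfsg Cfsg.Agent.DS.Cl Cfsg.Agent.DS.Cl.Fwd Cfsg.Agent.SB.Cl Module
open Cfsg.Agent.N2C.Cyc

section ring

variable {R : Type} [Ring R] [StarRing R] [Finite R]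

omit [StarRing R] in
theorem nil_jac {x : R} (hx : x ∈ Ring.jacobson R) : IsNilpotent x := by
  obtain ⟨n, hn⟩ := IsSemiprimaryRing.isNilpotent (R := R)
  have h1 := Ideal.pow_mem_pow hx n
  rw [hn] at h1
  exact ⟨n, h1⟩

theorem star_jac {x : R} (hx : x ∈ Ring.jacobson R) : star x ∈ Ring.jacobson R := by
  rw [← Ideal.jacobson_bot, Ideal.mem_jacobson_iff]
  intro y
  obtain ⟨v, hv⟩ := (nil_jac (Ideal.mul_mem_right (star y) _ hx)).isUnit_add_one.star
  rw [star_add, star_mul, star_star, star_one] at hv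
  exact ⟨(v⁻¹ : Rˣ), by rw [mul_assoc, ← mul_add_one, ← hv, Units.inv_mul, sub_self]; exact Ideal.zero_mem _⟩

/-- the quotient by the radical -/
def QJ (R : Type) [Ring R] : Type := R ⧸ Ring.jacobson R

noncomputable instance QJ.instRing : Ring (QJ R) := inferInstanceAs (Ring (R ⧸ Ring.jacobson R))

/-- the projection -/
def qj (R : Type) [Ring R] : R →+* QJ R := Ideal.Quotient.mk _

omit [StarRing R] [Finite R] in
theorem qj_surj : Function.Surjective (qj R) := Ideal.Quotient.mk_surjective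

omit [StarRing R] [Finite R] in
theorem qj_eq {x y : R} : qj R x = qj R y ↔ x - y ∈ Ring.jacobson R := Ideal.Quotient.eq

instance QJ.instFinite : Finite (QJ R) := Finite.of_surjective _ qj_surj

noncomputable instance QJ.instStarRing : StarRing (QJ R) where
  star := Quotient.map' star fun a b h => (Submodule.quotientRel_def _).2 (by
    rw [← star_sub]; exact star_jac ((Submodule.quotientRel_def _).1 h))
  star_involutive x := Quotient.inductionOn' x fun a => congrArg (qj R) (star_star a)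
  star_mul x y := Quotient.inductionOn₂' x y fun a b => congrArg (qj R) (star_mul a b)
  star_add x y := Quotient.inductionOn₂' x y fun a b => congrArg (qj R) (star_add a b)

theorem star_qj (x : R) : star (qj R x) = qj R (star x) := rfl

omit [StarRing R] [Finite R] in
theorem qj_cen {x : R} (hx : x ∈ Subring.center R) : qj R x ∈ Subring.center (QJ R) := Subring.mem_center_iff.2 fun y => by
  obtain ⟨y, rfl⟩ := qj_surj y
  rw [← map_mul, ← map_mul, cen_comm hx]

/-- **the Cayley transform on the radical** -/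
theorem nU_le_rad {z w : R} (hz : z ∈ Subring.center R) (hw : w ∈ Subring.center R) (h : w * (z - star z) = 1) :
    nU R ^ 2 ≤ Nat.card (Ring.jacobson R) * nU (QJ R) ^ 2 := by
  have h0 : ∀ (B : Type) [Ring B] [StarRing B] [Finite B], nU B = Nat.card (unitary B) := fun B _ _ _ =>
    Nat.card_congr (Equiv.subtypeEquivRight fun x => ⟨fun k => ⟨mul_eq_one_comm.1 k, k⟩, fun k => k.2⟩)
  have hd : z - star z ∈ Subring.center R := Subring.sub_mem _ hz (star_cen hz)
  have hs : star (z - star z) = -(z - star z) := by rw [star_sub, star_star, neg_sub]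
  have hs' : star w = -w := by
    have h1 := congrArg star h
    rw [star_mul, hs, star_one, neg_mul, neg_eq_iff_eq_neg] at h1
    rw [← one_mul (star w), ← h, mul_assoc, h1, mul_neg, mul_one]
  obtain ⟨c, hc, h1⟩ : ∃ c ∈ Subring.center R, c + star c = 1 := ⟨w * z, Subring.mul_mem _ hw hz, by
    rw [star_mul, hs', mul_neg, cen_comm hw (star z), ← sub_eq_add_neg, ← mul_sub, h]⟩
  let π : unitary R →* unitary (QJ R) :=
    { toFun := fun x => ⟨qj R x, by rw [star_qj, ← map_mul, x.2.1, map_one], by rw [star_qj, ← map_mul, x.2.2, map_one]⟩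
      map_one' := Subtype.ext (map_one _)
      map_mul' := fun a b => Subtype.ext (map_mul _ _ _) }
  have h2 : Nat.card π.ker ≤ Nat.card {s : R // s ∈ Ring.jacobson R ∧ star s = -s} := by
    have h3 : ∀ x : π.ker, (x.1 : R) - 1 ∈ Ring.jacobson R := fun x => qj_eq.1 ((congrArg Subtype.val x.2).trans (map_one _).symm)
    have h4 : ∀ x : π.ker, ∃ v : Rˣ, (v : R) = c * x.1 + star c := fun x => by
      have h5 := (nil_jac (Ideal.mul_mem_left _ c (h3 x))).isUnit_add_one
      rwa [mul_sub, mul_one, ← h1, ← add_assoc, sub_add_cancel] at h5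
    choose v hv using h4
    refine Nat.card_le_card_of_injective (fun x => ⟨(x.1 - 1) * (v x)⁻¹, Ideal.mul_mem_right _ _ (h3 x), ?_⟩) fun x y e => ?_
    · have h5 : ∀ {c : R}, c ∈ Subring.center R → star (x.1 : R) * c * x.1 = c := fun k => by
        rw [cen_comm k, mul_assoc, x.1.2.1, mul_one]
      rw [eq_neg_iff_add_eq_zero, ← (v x).isUnit.star.mul_right_eq_zero, ← (v x).isUnit.mul_left_eq_zero, mul_add, add_mul, ← star_mul,
        Units.inv_mul_cancel_right, mul_assoc (star (v x : R)), Units.inv_mul_cancel_right, hv, star_sub, star_one, star_add, star_mul, star_star,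
        show ∀ a b c d : R, (b - 1) * (c * a + d) + (b * d + c) * (a - 1) = b * c * a - c + (b * d * a - d) from
          fun _ _ _ _ => by noncomm_ring, h5 hc, h5 (star_cen hc), sub_self, sub_self, add_zero]
    · have h5 := Subtype.mk.inj e
      have h6 := (nil_jac (Ideal.mul_mem_right c _ (Ideal.mul_mem_right (((v y)⁻¹ : Rˣ) : R) _ (h3 y)))).isUnit_one_sub
      have h7 := Units.inv_mul_cancel_right ((x.1 : R) - 1) (v x)
      have h8 := Units.inv_mul_cancel_right ((y.1 : R) - 1) (v y)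
      rw [h5, hv] at h7
      rw [hv] at h8
      refine Subtype.ext (Subtype.ext (sub_eq_zero.1 (h6.mul_right_eq_zero.1 ?_)))
      rw [show ∀ s c d x y : R, (1 - s * c) * (x - y) = (s * (c * y + d) - (y - 1)) - (s * (c * x + d) - (x - 1)) from
        fun _ _ _ _ _ => by noncomm_ring, h7, h8, sub_self, sub_self, sub_self]
  have h3 : Nat.card {s : R // s ∈ Ring.jacobson R ∧ star s = -s} ^ 2 ≤ Nat.card (Ring.jacobson R) := by
    rw [sq, ← Nat.card_prod]
    refine Nat.card_le_card_of_injective (fun s => ⟨c * s.1.1 + (z - star z) * s.2.1,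
      Ideal.add_mem _ (Ideal.mul_mem_left _ _ s.1.2.1) (Ideal.mul_mem_left _ _ s.2.2.1)⟩) fun s t e => ?_
    have h4 : ∀ {a b : R}, star a = -a → star b = -b → c * a + (z - star z) * b - star (c * a + (z - star z) * b) = a := fun {a b} ha hb => by
      rw [star_add, star_mul, star_mul, ha, hb, hs, neg_mul_neg, cen_comm hd b, add_sub_add_right_eq_sub, neg_mul, cen_comm (star_cen hc),
        sub_neg_eq_add, ← add_mul, h1, one_mul]
    have h5 := Subtype.mk.inj e
    have h6 : s.1.1 = t.1.1 := by rw [← h4 s.1.2.2 s.2.2.2, h5, h4 t.1.2.2 t.2.2.2]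
    rw [h6, add_right_inj] at h5
    exact Prod.ext (Subtype.ext h6) (Subtype.ext (by rw [← one_mul s.2.1, ← h, mul_assoc, h5, ← mul_assoc, h, one_mul]))
  rw [h0, h0, ← π.ker.index_mul_card, Subgroup.index_ker, mul_pow, mul_comm]
  exact Nat.mul_le_mul ((Nat.pow_le_pow_left h2 2).trans h3) (Nat.pow_le_pow_left (Subgroup.card_le_card_group _) 2)

omit [StarRing R] [Finite R] in
theorem card_QJ : Nat.card (QJ R) * Nat.card (Ring.jacobson R) = Nat.card R :=
  (AddSubgroup.card_eq_card_quotient_mul_card_addSubgroup (Ring.jacobson R).toAddSubgroup).symm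

/-- orthogonal idempotents below `f` -/
def OI (f : R) (D : Finset R) : Prop := ∀ x ∈ D, x ≠ 0 ∧ x * x = x ∧ f * x = x ∧ ∀ y ∈ D, x ≠ y → x * y = 0

open Classical in
/-- the largest number of orthogonal idempotents below `f` -/
noncomputable def ni (f : R) : ℕ := (@Finset.univ _ (Fintype.ofFinite (Finset R))).filter (OI f) |>.sup Finset.card

omit [StarRing R] in
theorem le_ni {f : R} {D : Finset R} (h : OI f D) : D.card ≤ ni f := by
  classical
  exact Finset.le_sup (f := Finset.card) (Finset.mem_filter.2 ⟨@Finset.mem_univ _ (Fintype.ofFinite _) _, h⟩)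

omit [StarRing R] in
theorem exists_ni (f : R) : ∃ D, OI f D ∧ ni f = D.card := by
  classical
  obtain ⟨D, h1, h2⟩ := Finset.exists_mem_eq_sup ((@Finset.univ _ (Fintype.ofFinite (Finset R))).filter (OI f))
    ⟨∅, Finset.mem_filter.2 ⟨@Finset.mem_univ _ (Fintype.ofFinite _) _, fun _ h => absurd h (Finset.notMem_empty _)⟩⟩ Finset.card
  exact ⟨D, (Finset.mem_filter.1 h1).2, h2⟩

theorem ni_add {f g : R} (hf : CI 1 f) (hg : CI 1 g) (h : f * g = 0) : ni f + ni g ≤ ni (f + g) := by
  classical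
  obtain ⟨D, h1, e1⟩ := exists_ni f
  obtain ⟨E, h2, e2⟩ := exists_ni g
  have h' : g * f = 0 := by rw [← hf.cen g hg.comm, h]
  have h3 : ∀ {f g x : R}, f * g = 0 → g * x = x → f * x = 0 := fun k k' => by rw [← k', ← mul_assoc, k, zero_mul]
  have h4 : ∀ {f g x y : R}, CI 1 f → f * g = 0 → f * x = x → g * y = y → x * y = 0 := fun {f g x y} hf k k1 k2 => by
    rw [← k1, hf.cen x (by simp), mul_assoc, h3 k k2, mul_zero]
  rw [e1, e2, ← Finset.card_union_of_disjoint (Finset.disjoint_left.2 fun x k k' =>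
    (h1 x k).1 ((h1 x k).2.2.1.symm.trans (h3 h (h2 x k').2.2.1)))]
  refine le_ni fun x hx => ?_
  rcases Finset.mem_union.1 hx with k | k
  · refine ⟨(h1 x k).1, (h1 x k).2.1, by rw [add_mul, (h1 x k).2.2.1, h3 h' (h1 x k).2.2.1, add_zero], fun y hy t => ?_⟩
    exact (Finset.mem_union.1 hy).elim (fun k' => (h1 x k).2.2.2 y k' t) fun k' => h4 hf h (h1 x k).2.2.1 (h2 y k').2.2.1
  · refine ⟨(h2 x k).1, (h2 x k).2.1, by rw [add_mul, (h2 x k).2.2.1, h3 h (h2 x k).2.2.1, zero_add], fun y hy t => ?_⟩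
    exact (Finset.mem_union.1 hy).elim (fun k' => h4 hg h' (h2 x k).2.2.1 (h1 y k').2.2.1) fun k' => (h2 x k).2.2.2 y k' t

/-- **unitary groups of arbitrary finite rings** over a field of `q ^ 2` elements -/
theorem nU_le_gen {K : Type} [Field K] [Fintype K] {q n : ℕ} (hq : Fintype.card K = q ^ 2) (κ : K →+* R) (τ : K → K)
    (hκ : ∀ c, κ c ∈ Subring.center R) (hτ : ∀ c, star (κ c) = κ (τ c)) {c : K} (hc : τ c ≠ c)
    (hn : ∀ (I : Type) [Fintype I] (e : I → R), OrthogonalIdempotents e → (∀ i, e i ≠ 0) → Fintype.card I ≤ n) :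
    (nU R : ℚ) ^ 2 ≤ ((((q : ℚ) + 1) / q) ^ n) ^ 2 * Nat.card R := by
  have hq0 : 0 < q := Nat.pos_of_ne_zero fun k => by simp [k] at hq
  have hb := one_le_fr hq0
  have h1 : κ (c - τ c)⁻¹ * (κ c - star (κ c)) = 1 := by
    rw [hτ, ← map_sub, ← map_mul, inv_mul_cancel₀ (sub_ne_zero.2 hc.symm), map_one]
  have : IsSemisimpleRing (QJ R) := inferInstanceAs (IsSemisimpleRing (R ⧸ Ring.jacobson R))
  have hu : (1 : QJ R) * star 1 = 1 := by simp
  have h2 := abs_gen hu (fun _ => ss_blk' hu (one_pow 1) fun N k => ⟨1, by rw [Nat.dvd_one.1 k, one_smul, one_smul]⟩)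
    ((qj R).comp κ) τ (fun c => qj_cen (hκ c)) (fun c => (star_qj _).trans (congrArg _ (hτ c))) (z := qj R (κ c)) (w := qj R (κ (c - τ c)⁻¹))
    (e := 1) (fun x _ => (cen_comm (qj_cen (hκ c)) x).symm) (by simp) (by rw [star_qj, ← map_sub, ← map_mul, h1, map_one])
    (fun f => ((((q : ℚ) + 1) / q) ^ ni f * 1 ^ 0) ^ 2) (fun f => one_le_pow₀ (by simpa using one_le_pow₀ hb))
    (fun f g hf hg k => pot_mul hb le_rfl (ni_add hf hg k) le_rfl) (fun f hf h0 _ Q j k1 k2 _ => ?_) (CI.one 1) (CI.one 1) (one_mul 1)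
  · obtain ⟨D, h3, h4⟩ := exists_ni (1 : QJ R)
    obtain ⟨e, h5, h6⟩ := OrthogonalIdempotents.lift_of_isNilpotent_ker (qj R) (fun x hx => nil_jac (by simpa using qj_eq.1 (hx.trans (map_zero _).symm)))
      (e := fun x : D => x.1) ⟨fun x => (h3 x x.2).2.1, fun x y k => (h3 x x.2).2.2.2 y y.2 fun t => k (Subtype.ext t)⟩ fun x => qj_surj x.1
    have h7 := hn D e h5 fun x k => (h3 x x.2).1 ((congrFun h6 x).symm.trans (by rw [Function.comp_apply, k, map_zero]))
    rw [Fintype.card_coe, ← h4] at h7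
    rw [show pU (1 : QJ R) 1 = nU (QJ R) from Nat.card_congr (Equiv.subtypeEquivRight fun x => by simp),
      show pA (1 : QJ R) 1 = Nat.card (QJ R) from Nat.card_congr (Equiv.subtypeUnivEquiv fun x => by simp), pow_zero, mul_one] at h2
    calc (nU R : ℚ) ^ 2 ≤ Nat.card (Ring.jacobson R) * (nU (QJ R) : ℚ) ^ 2 := by exact_mod_cast nU_le_rad (hκ c) (hκ _) h1
      _ ≤ Nat.card (Ring.jacobson R) * (((((q : ℚ) + 1) / q) ^ n) ^ 2 * Nat.card (QJ R)) := by
        gcongr
        exact h2.trans (by gcongr)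
      _ = _ := by rw [← card_QJ (R := R)]; push_cast; ring
  obtain rfl : Q = q ^ j := Nat.pow_left_injective two_ne_zero (by simp only [k1, hq, ← pow_mul, mul_comm])
  refine pay hq0 (Nat.le_self_pow (by rintro rfl; exact hc (by simpa using k2 c)) q) ?_
  rw [pow_zero, mul_one]
  exact le_self_pow₀ hb (Nat.one_le_iff_ne_zero.1 (le_ni (D := {f}) fun x hx => by
    obtain rfl := Finset.mem_singleton.1 hx
    exact ⟨h0, hf.idem, hf.idem, fun y hy t => absurd (Finset.mem_singleton.1 hy).symm t⟩))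

end ring

variable {K V : Type} [Field K] [Fintype K] [AddCommGroup V] [Module K V] [Finite V] {h : HF K V}

theorem card_le_of_orth {I : Type} [Fintype I] (e : I → End K V) (h1 : ∀ i, e i * e i = e i) (h2 : ∀ i j, i ≠ j → e i * e j = 0)
    (h3 : ∀ i, e i ≠ 0) : Fintype.card I ≤ finrank K V := by
  choose v hv using fun i => DFunLike.ne_iff.1 (h3 i)
  refine LinearIndependent.fintype_card_le_finrank (b := fun i => e i (v i)) (Fintype.linearIndependent_iff.2 fun g hg j => ?_)
  have h4 := congrArg (e j) hg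
  rw [map_sum, map_zero, Finset.sum_eq_single j (fun i _ k => by rw [map_smul, ← End.mul_apply, h2 j i k.symm]; exact smul_zero _)
    (fun k => absurd (Finset.mem_univ j) k), map_smul, ← End.mul_apply, h1] at h4
  exact (smul_eq_zero.1 h4).resolve_right (hv j)

/-- **unitary groups, arbitrary elements** -/
theorem size_U_all (hU : IsU h) {q : ℕ} (hq : Fintype.card K = q ^ 2) {u : h.EB} (hu : u * star u = 1) {d : ℕ}
    (hd : cA u = Fintype.card K ^ d) : cU u * q ^ finrank K V ≤ q ^ d * (q + 1) ^ finrank K V := by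
  have hq0 : 0 < q := Nat.pos_of_ne_zero fun k => by simp [k] at hq
  obtain ⟨c, hc⟩ := hU.2
  have hκ : ∀ c, sc h c ∈ Subring.center h.EB := fun c => sc_eq (h := h) c ▸ h.smul_mem_center c
  have h1 := nU_le_gen (n := finrank K V) hq (kap hu (CI.one u) (sc h) hκ) h.τ (kap_cen hu _ hκ)
    (fun c => kap_star hu _ hκ (by rw [sc_eq, sc_eq, sc_star])) hc fun I _ e he h0 =>
      card_le_of_orth (fun i => h.ap ((blk hu (CI.one u)).val (e i))) (fun i => congrArg (blk hu (CI.one u)).val (he.idem i))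
        (fun i j k => congrArg (blk hu (CI.one u)).val (he.ortho k)) fun i k => h0 i ((blk hu (CI.one u)).val_inj k)
  rw [nU_blk, card_blk, pU_one, pA_one, hd, hq, ← pow_mul q, pow_mul' q] at h1
  simpa using fin_le (ν := finrank K V) (δ := 0) (b := 0) hq0 hq0 le_rfl le_rfl (by rw [pow_zero, mul_one]; exact h1)

end Cfsg.Agent.N2C.Sz
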