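import Cfsg.Agent.N2.Cl.Cyc.Cov
import Cfsg.Agent.FP3.Aff.Scott
import Cfsg.Agent.SB.C2.ExtA

/-!
# N2: Scott's lemma on the ring `A` and on the Lie algebra `F.L` (helper96)

* `scott_card` : finite elementary abelian groups;
* `scott_A`, `scott_End` : `cA x * cA y * cA (x * y) ≤ |A| * |centre| ^ 2` if `x`, `y` and the centre generate `A`;
* `scott_L` : the same on `F.L = Lmin A`; `sq_le_cL`, `sq_le_cA` : involutions in characteristic two;
* `span_of_gen` : the hypothesis for class `S`.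
-/

set_option autoImplicit false
set_option linter.unusedSectionVars false

namespace Cfsg.Agent.N2C.Sz

open Cfsg Cfsg.Agent.DS.Cl Module
open Cfsg.Agent.N2C.Cyc (cA cO)
open Cfsg.Agent.FP3 (fixSp comSp dfx mem_fixSp sub_mem_comSp scott_corr)

theorem scott_zmod {W : Type} [AddCommGroup W] [Finite W] {p : ℕ} [Fact p.Prime] [Module (ZMod p) W] (u v : End (ZMod p) W)
    {a b : ℕ} (ha : Nat.card {w // u w = w ∧ v w = w} ≤ a)
    (hb : ∀ X : AddSubgroup W, (∀ w, u w - w ∈ X) → (∀ w, v w - w ∈ X) → X.index ≤ b) :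
    Nat.card {w // u w = w} * Nat.card {w // v w = w} * Nat.card {w // u (v w) = w} ≤ Nat.card W * (a * b) := by
  have h0 : ∀ (X : Type) [AddCommGroup X] [Module (ZMod p) X] [Finite X], Nat.card X = p ^ finrank (ZMod p) X := fun X _ _ _ =>
    (Module.natCard_eq_pow_finrank (K := ZMod p)).trans (by rw [Nat.card_zmod])
  have h1 : ∀ t : End (ZMod p) W, Nat.card {w : W // t w = w} = p ^ dfx t := fun t =>
    (Nat.card_congr (Equiv.subtypeEquivRight fun _ => mem_fixSp.symm)).trans (h0 (fixSp t))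
  have h2 : p ^ finrank (ZMod p) ↥(fixSp u ⊓ fixSp v) ≤ a :=
    (h0 _).ge.trans ((Nat.card_congr (Equiv.subtypeEquivRight fun _ => and_congr mem_fixSp mem_fixSp)).trans_le ha)
  have h3 : p ^ finrank (ZMod p) (W ⧸ (comSp u ⊔ comSp v)) ≤ b := by
    have : Finite (W ⧸ (comSp u ⊔ comSp v)) := Finite.of_surjective _ (Submodule.mkQ_surjective _)
    exact (h0 _).ge.trans (hb (comSp u ⊔ comSp v).toAddSubgroup (fun w => Submodule.mem_sup_left (sub_mem_comSp u w))
      fun w => Submodule.mem_sup_right (sub_mem_comSp v w))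
  have h4 := Nat.pow_le_pow_right (Fact.out : p.Prime).pos (scott_corr u v)
  rw [pow_add, pow_add, pow_add, pow_add, ← h1, ← h1, ← h1, mul_assoc (p ^ _), ← h0 W] at h4
  exact h4.trans (Nat.mul_le_mul_left _ (Nat.mul_le_mul h2 h3))

/-- **Scott's lemma** for finite elementary abelian groups -/
theorem scott_card {W : Type} [AddCommGroup W] [Finite W] {p : ℕ} (hp : p.Prime) (h : ∀ x : W, p • x = 0) (α β : W →+ W)
    {a b : ℕ} (ha : Nat.card {w // α w = w ∧ β w = w} ≤ a)
    (hb : ∀ X : AddSubgroup W, (∀ w, α w - w ∈ X) → (∀ w, β w - w ∈ X) → X.index ≤ b) :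
    Nat.card {w // α w = w} * Nat.card {w // β w = w} * Nat.card {w // α (β w) = w} ≤ Nat.card W * (a * b) :=
  haveI : Fact p.Prime := ⟨hp⟩
  letI : Module (ZMod p) W := AddCommGroup.zmodModule h
  scott_zmod (p := p) (α.toZModLinearMap p) (β.toZModLinearMap p) ha hb

/-- a quadratic automorphism fixes many points -/
theorem card_le_sq {W : Type} [AddCommGroup W] [Finite W] (α : W →+ W) (h : ∀ w, α (α w - w) = α w - w) :
    Nat.card W ≤ Nat.card {w // α w = w} ^ 2 := by
  let φ : W →+ W := α - AddMonoidHom.id W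
  have h1 : Nat.card φ.ker = Nat.card {w // α w = w} := Nat.card_congr (Equiv.subtypeEquivRight fun _ => sub_eq_zero)
  rw [← φ.ker.index_mul_card, AddSubgroup.index_ker, sq, ← h1]
  exact Nat.mul_le_mul_right _ (AddSubgroup.card_le_of_le (by rintro _ ⟨w, rfl⟩; exact sub_eq_zero.2 (h w)))

section ring

variable {A : Type} [Ring A] [Finite A]

theorem cj_eq_iff' (u : Aˣ) (a : A) : cj A u a = a ↔ a * u = u * a := by
  rw [cj_apply, Units.mul_inv_eq_iff_eq_mul, eq_comm]

theorem cA_eq (u : Aˣ) : cA (u : A) = Nat.card {a // cj A u a = a} :=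
  Nat.card_congr (Equiv.subtypeEquivRight fun a => (cj_eq_iff' u a).symm)

variable {x y : Aˣ} {X : AddSubgroup A} {n : ℕ} {E : Fin n → Fin n → A}

theorem comm_mem (hg : Subring.closure ((Subring.center A : Set A) ∪ {(x : A), (y : A)}) = ⊤) (hx : ∀ a, cj A x a - a ∈ X)
    (hy : ∀ a, cj A y a - a ∈ X) (s b : A) : s * b - b * s ∈ X := by
  have h1 : ∀ u : Aˣ, (∀ a, cj A u a - a ∈ X) → ∀ b : A, u * b - b * u ∈ X := fun u hu b => by
    have h2 := hu (b * u)
    rwa [cj_apply, ← mul_assoc, Units.mul_inv_cancel_right] at h2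
  have hs : s ∈ Subring.closure ((Subring.center A : Set A) ∪ {(x : A), (y : A)}) := hg ▸ Subring.mem_top s
  induction hs using Subring.closure_induction generalizing b with
  | mem s hs =>
    rcases hs with hs | rfl | rfl
    · rw [cen_comm hs, sub_self]
      exact X.zero_mem
    · exact h1 x hx b
    · exact h1 y hy b
  | zero => simp
  | one => simp
  | add s t _ _ hs ht => convert X.add_mem (hs b) (ht b) using 1; noncomm_ring
  | neg s _ hs => convert X.neg_mem (hs b) using 1; noncomm_ring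
  | mul s t _ _ hs ht => convert X.add_mem (hs (t * b)) (ht (b * s)) using 1; noncomm_ring

/-- the trace -/
theorem exists_tr (hE : MU E) (o : Fin n) (hX : ∀ s b, s * b - b * s ∈ X) (a : A) :
    ∃ c ∈ Subring.center A, a - c * E o o ∈ X := by
  refine ⟨∑ i, coef E a i i, Subring.sum_mem _ fun i _ => hE.coef_cen a i i, ?_⟩
  nth_rewrite 1 [hE.toMU0.expand a]
  rw [Finset.sum_mul, ← Finset.sum_sub_distrib]
  refine X.sum_mem fun i _ => ?_
  rw [← Finset.add_sum_erase _ _ (Finset.mem_univ i), add_sub_right_comm]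
  refine X.add_mem ?_ (X.sum_mem fun j hj => ?_)
  · have h1 := hX (coef E a i i * E i o) (E o i)
    rwa [mul_assoc, hE.toMU0.mul_eq, ← mul_assoc, cen_comm (hE.coef_cen a i i), mul_assoc, hE.toMU0.mul_eq] at h1
  · have h1 := hX (coef E a i j * E i j) (E j j)
    rwa [mul_assoc, hE.toMU0.mul_eq, ← mul_assoc, cen_comm (hE.coef_cen a i j), mul_assoc, hE.mul,
      if_neg (Finset.ne_of_mem_erase hj), mul_zero, sub_zero] at h1

theorem scott_mu (hE : MU E) (o : Fin n) {p : ℕ} (hp : p.Prime) (h0 : (p : A) = 0)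
    (hg : Subring.closure ((Subring.center A : Set A) ∪ {(x : A), (y : A)}) = ⊤) :
    cA (x : A) * cA (y : A) * cA ((x * y : Aˣ) : A) ≤ Nat.card A * Nat.card (Subring.center A) ^ 2 := by
  rw [cA_eq, cA_eq, cA_eq, sq, map_mul]
  refine scott_card hp (fun a => by rw [nsmul_eq_mul, h0, zero_mul]) (cj A x : A →+ A) (cj A y : A →+ A)
    (Nat.card_le_card_of_injective (fun a => ⟨a.1, cen_of_comm hg ?_⟩) fun a b e => Subtype.ext (Subtype.mk.inj e))
    fun X hx hy => Nat.card_le_card_of_surjective (fun c : Subring.center A => ((c * E o o : A) : A ⧸ X)) fun z => ?_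
  · rintro _ (rfl | rfl)
    · exact ((cj_eq_iff' x a).1 a.2.1).symm
    · exact ((cj_eq_iff' y a).1 a.2.2).symm
  · obtain ⟨a, rfl⟩ := QuotientAddGroup.mk_surjective z
    obtain ⟨c, hc, h1⟩ := exists_tr hE o (comm_mem hg hx hy) a
    exact ⟨⟨c, hc⟩, QuotientAddGroup.eq.2 (by rwa [neg_add_eq_sub])⟩

/-- involutions in characteristic two -/
theorem sq_le_cA (h2 : (2 : A) = 0) (hx : ((x * x : Aˣ) : A) ∈ Subring.center A) : Nat.card A ≤ cA (x : A) ^ 2 := by
  rw [cA_eq]
  refine card_le_sq (cj A x : A →+ A) fun a => ?_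
  have h1 : cj A x (cj A x a) = a := by rw [← ra_mul, ← map_mul, cj_eq_one_iff.2 hx, ra_one]
  show cj A x (cj A x a - a) = cj A x a - a
  rw [map_sub, h1, ← sub_eq_zero, show a - cj A x a - (cj A x a - a) = 2 * (a - cj A x a) by noncomm_ring, h2, zero_mul]

end ring

/-- **Scott's lemma on `End V`** -/
theorem scott_End {K V : Type} [Field K] [Finite K] [AddCommGroup V] [Module K V] [Finite V] [Nontrivial V] {x y : (End K V)ˣ}
    (hg : Subring.closure ((Subring.center (End K V) : Set (End K V)) ∪ {(x : End K V), (y : End K V)}) = ⊤) :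
    cA (x : End K V) * cA (y : End K V) * cA ((x * y : (End K V)ˣ) : End K V) ≤ Nat.card K ^ (finrank K V ^ 2 + 2) := by
  have : Finite (End K V) := Finite.of_injective _ DFunLike.coe_injective
  have : IsSimpleRing (End K V) := by
    have : Nonempty (Fin (finrank K V)) := ⟨⟨0, finrank_pos⟩⟩
    exact IsSimpleRing.of_ringEquiv (LinearMap.toMatrixAlgEquiv (finBasis K V)).symm.toRingEquiv inferInstance
  obtain ⟨n, E, hE⟩ := exists_mu_simple (End K V)
  obtain ⟨p, hp⟩ := CharP.exists K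
  have h1 := scott_mu hE ⟨0, hE.pos⟩ (CharP.char_is_prime K p) (by
    rw [← map_natCast (algebraMap K (End K V)), CharP.cast_eq_zero, map_zero]) hg
  rwa [SB.C2.card_end, SB.C2.card_center (RingEquiv.refl _), ← pow_add] at h1

variable {A : Type} [Ring A] [StarRing A] [Finite A] {F : FR A} {x y : Aˣ}

/-- **Scott's lemma on `A`** -/
theorem scott_A (h : SS A) (hg : Subring.closure ((Subring.center A : Set A) ∪ {(x : A), (y : A)}) = ⊤) :
    cA (x : A) * cA (y : A) * cA ((x * y : Aˣ) : A) ≤ Nat.card A * Nat.card (Subring.center A) ^ 2 := by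
  have := h.nontrivial
  obtain ⟨n, E, hE⟩ := h.exists_mu
  obtain ⟨p, hp, _⟩ := SB.C2.exists_char h
  exact scott_mu hE ⟨0, hE.pos⟩ hp (CharP.cast_eq_zero A p) hg

/-- the number of elements of the Lie algebra commuting with `u` -/
noncomputable def cL (F : FR A) (u : A) : ℕ := Nat.card {a : A // a ∈ F.L ∧ a * u = u * a}

/-- the number of skew central elements -/
noncomputable def zS (A : Type) [Ring A] [StarRing A] : ℕ := Nat.card {c : A // c ∈ Subring.center A ∧ star c = -c}

/-- the adjoint action -/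
def ad {u : Aˣ} (hu : u ∈ F.Iso) : F.L →+ F.L :=
  ((cj A u : A →+ A).comp F.L.subtype).codRestrict _ fun a => F.map_mem (FR.cj_mem_Aut hu).1 a.2

theorem cL_eq {u : Aˣ} (hu : u ∈ F.Iso) : cL F u = Nat.card {a // ad hu a = a} :=
  Nat.card_congr ⟨fun a => ⟨⟨a.1, a.2.1⟩, Subtype.ext ((cj_eq_iff' u a).2 a.2.2)⟩,
    fun a => ⟨a.1.1, a.1.2, (cj_eq_iff' u a.1).1 (congrArg Subtype.val a.2)⟩, fun _ => rfl, fun _ => rfl⟩

theorem mu_star {n : ℕ} {E : Fin n → Fin n → A} (hE : MU E) : MU fun i j => star (E j i) where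
  mul i j k l := by
    rw [← star_mul, hE.mul]
    by_cases h : j = k
    · rw [if_pos h, if_pos h.symm]
    · rw [if_neg h, if_neg (Ne.symm h), star_zero]
  sum := by rw [← star_sum, hE.sum, star_one]
  cen a ha := by
    rw [← star_star a]
    exact star_cen (hE.cen _ fun i j => by rw [← star_star (E i j), ← star_mul, ← ha, star_mul, star_star])

/-- **Scott's lemma on the Lie algebra** -/
theorem scott_L (h : SS A) (hL : F.L = Lmin A) (hx : x ∈ F.Iso) (hy : y ∈ F.Iso)
    (hg : Subring.closure ((Subring.center A : Set A) ∪ {(x : A), (y : A)}) = ⊤) :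
    cL F x * cL F y * cL F (x * y : Aˣ) ≤ Nat.card F.L * zS A ^ 2 := by
  have := h.nontrivial
  obtain ⟨n, E, hE⟩ := h.exists_mu
  obtain ⟨p, hp, _⟩ := SB.C2.exists_char h
  let o : Fin n := ⟨0, hE.pos⟩
  obtain ⟨t, ht⟩ := h.conj_mu hE (mu_star hE)
  rw [cL_eq hx, cL_eq hy, cL_eq (mul_mem hx hy), sq,
    show ad (mul_mem hx hy) = (ad hx).comp (ad hy) from AddMonoidHom.ext fun a => Subtype.ext (by
      show cj A (x * y) a = cj A x (cj A y a)
      rw [map_mul, ra_mul])]
  refine scott_card hp (fun a => Subtype.ext (by rw [AddSubgroup.coe_nsmul, nsmul_eq_mul, CharP.cast_eq_zero, zero_mul]; rfl))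
    (ad hx) (ad hy) (Nat.card_le_card_of_injective (fun a => ⟨a.1.1, cen_of_comm hg ?_, F.star_eq_neg a.1.2⟩)
      fun a b e => Subtype.ext (Subtype.ext (Subtype.mk.inj e))) fun X hx' hy' => ?_
  · rintro _ (rfl | rfl)
    · exact ((cj_eq_iff' x a.1).1 (congrArg Subtype.val a.2.1)).symm
    · exact ((cj_eq_iff' y a.1).1 (congrArg Subtype.val a.2.2)).symm
  let π : A →+ F.L := (AddMonoidHom.id A - (starAddEquiv : A ≃+ A).toAddMonoidHom).codRestrict _ F.sub_star_mem
  have h1 : ∀ {u : Aˣ} (hu : u ∈ F.Iso), (∀ a, ad hu a - a ∈ X) → ∀ a, cj A u a - a ∈ X.comap π := fun {u} hu k a => by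
    rw [AddSubgroup.mem_comap, map_sub, show π (cj A u a) = ad hu (π a) from Subtype.ext (by
      show cj A u a - star (cj A u a) = cj A u (a - star a)
      rw [map_sub, (FR.cj_mem_Aut hu).1])]
    exact k _
  have h2 := comm_mem hg (h1 hx hx') (h1 hy hy')
  let ψ : Subring.center A →+ F.L ⧸ X := (QuotientAddGroup.mk' X).comp (π.comp
    ((AddMonoidHom.mulRight (E o o)).comp (Subring.center A).subtype.toAddMonoidHom))
  let τ : Subring.center A →+ Subring.center A :=
    { toFun := fun c => ⟨c + star c.1, Subring.add_mem _ c.2 (star_cen c.2)⟩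
      map_zero' := Subtype.ext (by simp)
      map_add' := fun a b => Subtype.ext (by simp only [Subring.coe_add, star_add]; abel) }
  have h3 : ψ.range = ⊤ := AddMonoidHom.range_eq_top.2 fun z => by
    obtain ⟨⟨z, hz⟩, rfl⟩ := QuotientAddGroup.mk_surjective z
    obtain ⟨a, rfl⟩ : z ∈ Lmin A := hL ▸ hz
    obtain ⟨c, hc, h3⟩ := exists_tr hE o h2 a
    refine ⟨⟨c, hc⟩, QuotientAddGroup.eq.2 ?_⟩
    rw [AddSubgroup.mem_comap, map_sub] at h3
    rwa [neg_add_eq_sub]
  have h4 : τ.range ≤ ψ.ker := by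
    rintro _ ⟨c, rfl⟩
    refine (QuotientAddGroup.eq_zero_iff _).2 ?_
    have h5 := h2 (star c.1 * E o o * (t⁻¹ : Aˣ)) t
    have h6 : star c.1 * E o o * (t⁻¹ : Aˣ) * t - t * (star c.1 * E o o * (t⁻¹ : Aˣ)) =
        (c + star c.1) * E o o - (c * E o o + star (c * E o o)) := by
      rw [Units.inv_mul_cancel_right, ← mul_assoc, ← mul_assoc, cen_comm (star_cen c.2), mul_assoc (star c.1), ht, ← mul_assoc,
        Units.mul_inv_cancel_right, star_mul, cen_comm (star_cen c.2) (star _)]
      noncomm_ring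
    rw [h6, AddSubgroup.mem_comap, map_sub, show π (c * E o o + star (c * E o o)) = 0 from Subtype.ext (by
      show c * E o o + star (c * E o o) - star (c * E o o + star (c * E o o)) = (0 : A)
      rw [star_add, star_star, add_comm, sub_self]), sub_zero] at h5
    exact h5
  have h5 : X.index = ψ.ker.index := by rw [AddSubgroup.index_ker, h3, AddSubgroup.card_top]; rfl
  have h6 := τ.ker.index_mul_card
  rw [AddSubgroup.index_ker, ← τ.range.index_mul_card, mul_comm] at h6
  rw [h5]
  refine (AddSubgroup.index_antitone h4).trans ((Nat.eq_of_mul_eq_mul_right Nat.card_pos h6).ge.trans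
    (Nat.card_le_card_of_injective (fun c => ⟨c.1.1, c.1.2, eq_neg_of_add_eq_zero_right (congrArg Subtype.val c.2)⟩)
      fun a b e => Subtype.ext (Subtype.ext (Subtype.mk.inj e))))

/-- involutions in characteristic two -/
theorem sq_le_cL (h2 : (2 : A) = 0) (hx : x ∈ F.Iso) (hx2 : ((x * x : Aˣ) : A) ∈ Subring.center A) :
    Nat.card F.L ≤ cL F x ^ 2 := by
  rw [cL_eq hx]
  refine card_le_sq (ad hx) fun a => Subtype.ext ?_
  have h1 : cj A x (cj A x a) = a := by rw [← ra_mul, ← map_mul, cj_eq_one_iff.2 hx2, ra_one]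
  show cj A x (cj A x a - a) = cj A x a - a
  rw [map_sub, h1, ← sub_eq_zero, show a - cj A x a - (cj A x a - a) = 2 * (a - cj A x a) by noncomm_ring, h2, zero_mul]

omit [StarRing A] in
/-- lifts of generators -/
theorem span_of_gen {P : Subgroup Aˣ} (hs : Subring.closure ((fun u : Aˣ => (u : A)) '' P) = ⊤)
    (hg : ∀ u ∈ P, cj A u ∈ Subgroup.closure ({cj A x, cj A y} : Set (RingAut A))) :
    Subring.closure ((Subring.center A : Set A) ∪ {(x : A), (y : A)}) = ⊤ := by
  rw [eq_top_iff, ← hs, Subring.closure_le]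
  rintro _ ⟨u, hu, rfl⟩
  have h1 := hg u hu
  rw [← Set.image_pair, ← MonoidHom.map_closure] at h1
  obtain ⟨v, hv, h2⟩ := h1
  obtain ⟨z, hz, rfl⟩ := cj_eq_iff.1 h2.symm
  refine Subring.mul_mem _ ?_ (Subring.subset_closure (Or.inl hz))
  clear h2 hu
  rw [SetLike.mem_coe, ← Subgroup.mem_toSubmonoid, Subgroup.closure_toSubmonoid_of_finite] at hv
  induction hv using Submonoid.closure_induction with
  | mem w hw => exact Subring.subset_closure (Or.inr (by rcases hw with rfl | rfl <;> simp))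
  | one => exact Subring.one_mem _
  | mul a b _ _ ha hb => exact Subring.mul_mem _ ha hb

end Cfsg.Agent.N2C.Sz
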