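import Cfsg.Agent.N2.Cl.Sz.Main

/-!
# N2, size lemma: elements of order prime to the characteristic, bilinear forms (helper96)

`ss_Sp`, `ss_O` : `cO F u * q ^ (n / 2) ≤ c * q ^ ((d ± a) / 2) * (q + 1) ^ (n / 2)`, `a` the multiplicity of the eigenvalues `± 1`.
-/

set_option autoImplicit false
set_option linter.unusedSectionVars false
set_option maxHeartbeats 400000

namespace Cfsg.Agent.N2C.Sz

open Cfsg Cfsg.Agent.DS.Cl Cfsg.Agent.DS.Cl.Fwd Cfsg.Agent.SB.Cl Module
open Cfsg.Agent.N2C.Cyc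
open Cfsg.Agent.LieClassical.OrthCore (O Nondeg)

theorem up_le {x y q a b : ℕ} (h : x * q ^ a ≤ y * (q + 1) ^ a) (k : a ≤ b) : x * q ^ b ≤ y * (q + 1) ^ b := by
  obtain ⟨c, rfl⟩ := Nat.exists_eq_add_of_le k
  rw [pow_add, pow_add, ← mul_assoc, ← mul_assoc]
  exact Nat.mul_le_mul h (Nat.pow_le_pow_left (Nat.le_succ q) c)

theorem card_sq {T K : Type} [Ring T] [StarRing T] [Finite T] [Field K] [Fintype K] (κ : K →+* T) (hκ : ∀ c, κ c ∈ Subring.center T)
    (hs : ∀ c, star (κ c) = κ c) {z w : T} (hz : z ∈ Subring.center T) (h : w * (z - star z) = 1) :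
    ∃ s, Nat.card T = (Fintype.card K ^ s) ^ 2 := by
  have hs' : star w = -w := by
    have h1 := congrArg star h
    rw [star_mul, star_sub, star_star, ← neg_sub, star_one, neg_mul, neg_eq_iff_eq_neg] at h1
    rw [← one_mul (star w), ← h, mul_assoc, h1, mul_neg, mul_one]
  let F : FR T := ⟨w * z, Lmax T, by rw [star_mul, hs', mul_neg, ← cen_comm (star_cen hz), ← sub_eq_add_neg, ← mul_sub, h], Or.inr rfl⟩
  let _ : Module K T := Module.compHom T κ
  let S : Submodule K T := { Lmax T with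
    smul_mem' := fun c x (hx : star x = -x) => show star (κ c * x) = -(κ c * x) by rw [star_mul, hs, hx, neg_mul, cen_comm (hκ c)] }
  exact ⟨finrank K S, by rw [← card_L_sq F hz h, ← Nat.card_eq_fintype_card, ← Module.natCard_eq_pow_finrank]; rfl⟩

theorem CI.add {A : Type} [Ring A] [StarRing A] {u e f : A} (he : CI u e) (hf : CI u f) (h : e * f = 0) : CI u (e + f) :=
  ⟨by rw [add_mul, mul_add, mul_add, he.idem, hf.idem, h, ← he.cen f (hf.cen u rfl), h, add_zero, zero_add],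
    by rw [star_add, he.st, hf.st], fun x hx => by rw [add_mul, mul_add, he.cen x hx, hf.cen x hx]⟩

theorem CI.zero {A : Type} [Ring A] [StarRing A] (u : A) : CI u 0 := ⟨mul_zero _, star_zero _, fun _ _ => by rw [zero_mul, mul_zero]⟩

theorem cast_ne {K : Type} [Field K] {p k : ℕ} (hp : p.Prime) [CharP K p] (h : k.Coprime p) : (k : K) ≠ 0 := fun t =>
  hp.coprime_iff_not_dvd.1 h.symm ((CharP.cast_eq_zero_iff K p _).1 t)

variable {K V : Type} [Field K] [Fintype K] [AddCommGroup V] [Module K V] [Finite V] {h : HF K V}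

section

variable {u e f : h.EB}

theorem ap_rg (he : CI u e) {v : V} (hv : v ∈ LinearMap.range (h.ap e)) : h.ap e v = v := by
  obtain ⟨x, rfl⟩ := hv
  rw [← h.ap_mul, he.idem]

theorem rk_add (he : CI u e) (hf : CI u f) (k : e * f = 0) : rk h e + rk h f ≤ rk h (e + f) := by
  have k' : f * e = 0 := by rw [← he.cen f hf.comm, k]
  rw [rk, rk, ← Submodule.finrank_sup_add_finrank_inf_eq, show LinearMap.range (h.ap e) ⊓ LinearMap.range (h.ap f) = ⊥ from
    eq_bot_iff.2 fun v hv => (by rw [← ap_rg he hv.1, ← ap_rg hf hv.2, ← h.ap_mul, k]; rfl : v = 0), finrank_bot, add_zero]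
  refine Submodule.finrank_mono (sup_le (fun v hv => ⟨v, ?_⟩) fun v hv => ⟨v, ?_⟩)
  · rw [← ap_rg he hv, ← h.ap_mul, add_mul, he.idem, k', add_zero]
  · rw [← ap_rg hf hv, ← h.ap_mul, add_mul, hf.idem, k, zero_add]

theorem nd_rg (he : CI u e) : ∀ v ∈ LinearMap.range (h.ap e), (∀ w ∈ LinearMap.range (h.ap e), h.b w v = 0) → v = 0 := fun v hv H =>
  h.nondeg v fun y => by
    rw [← ap_rg he hv, ← he.st, h.b_star]
    exact H _ ⟨y, rfl⟩

/-- the restriction to the image -/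
noncomputable def rs (he : CI u e) (x : h.EBˣ) (hx : (x : h.EB) * u = u * x) : LinearMap.range (h.ap e) ≃ₗ[K] LinearMap.range (h.ap e) :=
  LinearEquiv.ofInjectiveEndo ((h.ap x).restrict fun v hv => ⟨h.ap x v, by rw [← h.ap_mul, he.cen _ hx, h.ap_mul, ap_rg he hv]⟩)
    fun _ _ k => Subtype.ext ((unE h x).injective (congrArg Subtype.val k))

theorem rs_eq (he : CI u e) {x y : h.EBˣ} {hx : (x : h.EB) * u = u * x} {hy : (y : h.EB) * u = u * y} (k : rs he x hx = rs he y hy) :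
    x * e = y * e := h.ap_ext fun v => by
  exact congrArg Subtype.val (DFunLike.congr_fun k ⟨h.ap e v, v, rfl⟩)

theorem two_le_rk (hτ : ∀ c, h.τ c = c) (hf : CI u f) (k : (u - star u) * f ≠ 0) : 2 ≤ rk h f := by
  by_contra t
  obtain ⟨v, hv⟩ := finrank_le_one_iff.1 (Nat.le_of_lt_succ (not_le.1 t))
  have h1 : ∀ x, ∃ c : K, h.ap f x = c • (v : V) := fun x => (hv ⟨_, x, rfl⟩).imp fun c k => (congrArg Subtype.val k).symm
  obtain ⟨a, ha⟩ := h1 (h.ap u v)
  rw [← h.ap_mul, hf.comm, h.ap_mul, ap_rg hf v.2] at ha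
  refine k (h.ap_ext fun x => h.nondeg _ fun y => ?_)
  obtain ⟨c, hc⟩ := h1 x
  obtain ⟨d, hd⟩ := h1 y
  have h2 : star u * f = f * star u := by simpa only [star_mul, hf.st] using congrArg star hf.comm
  rw [← hf.idem, ← mul_assoc, sub_mul, ← hf.comm, h2, ← mul_sub, mul_assoc, h.ap_mul, ← hf.st, h.b_star, hf.st, h.ap_mul, h.ap_sub,
    h.sub_right, h.b_star, hc, hd, map_smul, map_smul, ha]
  simp only [h.smul_left, h.smul_right, hτ]
  ring

theorem exists_w' (hu : u * star u = 1) (he : CI u e) (h2 : e * (u - star u) = 0)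
    (h1 : ∀ v, h.ap e v = 0 → h.ap u (h.ap u v) = v → v = 0) : ∃ w, w * u = u * w ∧ w * (u - star u) = 1 - e := by
  have hu' := mul_eq_one_comm.1 hu
  obtain ⟨δ, hδ⟩ : IsUnit (u - star u + e) := (LinearMap.isUnit_iff_ker_eq_bot (h.ap _)).2 (LinearMap.ker_eq_bot'.2 fun v hv => by
    have h3 : h.ap e v = 0 := by
      have h4 := congrArg (h.ap e) hv
      rwa [← h.ap_mul, mul_add, h2, zero_add, he.idem, map_zero] at h4
    rw [h.ap_add, h3, add_zero, h.ap_sub, sub_eq_zero] at hv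
    exact h1 v h3 (by rw [hv, ← h.ap_mul, hu, h.ap_one]))
  have h3 : Commute u (δ : h.EB) := by
    rw [hδ]
    exact ((Commute.refl u).sub_right (hu.trans hu'.symm)).add_right he.comm.symm
  refine ⟨(δ⁻¹ : h.EBˣ) * (1 - e), (h3.units_inv_right.mul_right ((Commute.one_right u).sub_right he.comm.symm)).symm, ?_⟩
  rw [mul_assoc, Units.inv_mul_eq_iff_eq_mul, hδ, sub_mul, one_mul, h2, sub_zero, add_mul, mul_sub _ 1, mul_sub _ 1, mul_one, mul_one,
    he.idem, sub_self, add_zero, ← he.cen _ ((Commute.refl u).sub_left (hu'.trans hu.symm)), h2, sub_zero]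

variable [Nontrivial V] {m : ℕ}

/-- the part without the eigenvalues `± 1` -/
theorem rest (hτ : ∀ c, h.τ c = c) (hm : (m : K) ≠ 0) (hu : u * star u = 1) (hp : u ^ m = 1) (he : CI u e) {w : h.EB}
    (hw : w * u = u * w) (hw' : w * (u - star u) = e) : ∃ s, pA u e = (Fintype.card K ^ s) ^ 2 ∧
      pU u e * Fintype.card K ^ (rk h e / 2) ≤ Fintype.card K ^ s * (Fintype.card K + 1) ^ (rk h e / 2) := by
  have hq0 : 0 < Fintype.card K := Fintype.card_pos
  have hb := one_le_fr hq0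
  have hκ : ∀ c, sc h c ∈ Subring.center h.EB := fun c => sc_eq (h := h) c ▸ h.smul_mem_center c
  have hs : ∀ c, star (sc h c) = sc h (h.τ c) := fun c => by rw [sc_eq, sc_eq, sc_star]
  obtain ⟨s, hs'⟩ := card_sq (kap hu he (sc h) hκ) (kap_cen hu he hκ) (fun c => kap_star hu he hκ ((hs c).trans (by rw [hτ])))
    (cen_blk hu he fun _ hy => hy.symm) (unit_blk hu he rfl hw (by rw [hw', he.idem]))
  rw [card_blk] at hs'
  have h3 := abs_main h.ss hu hp (natCast_ne hm) (sc h) h.τ hκ hs (z := u) (fun x hx => hx.symm) hw hw'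
    (fun f => ((((Fintype.card K : ℚ) + 1) / Fintype.card K) ^ (rk h f / 2) * (((Fintype.card K : ℚ) + 1) / Fintype.card K) ^ 0) ^ 2)
    (fun f => one_le_pow₀ (one_le_mul_of_one_le_of_one_le (one_le_pow₀ hb) (one_le_pow₀ hb)))
    (fun f g hf hg k => pot_mul hb hb (by have := rk_add hf hg k; omega) le_rfl) (fun f hf h0 hef Q j k1 k2 k3 => ?_) he he he.idem
  · rw [hs'] at h3
    exact ⟨s, hs', by simpa using fin_le (δ := 0) hq0 hq0 le_rfl le_rfl h3⟩
  have h4 : (u - star u) * f ≠ 0 := fun t => h0 (by rw [← hef, ← hw', mul_assoc, t, mul_zero])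
  obtain ⟨k, rfl⟩ := root_bil k1 fun c => (hτ c).symm.trans (k2 c)
  refine pay hq0 (Nat.le_self_pow ?_ _) ?_
  · rintro rfl
    rw [pow_zero, ← two_mul, mul_one, sq] at k3
    refine h4 ?_
    rw [sub_mul, sub_eq_zero, ← congrArg (star u * ·) k3, ← mul_assoc, ← mul_assoc, mul_eq_one_comm.1 hu, one_mul]
  · rw [pow_zero, mul_one]
    exact le_self_pow₀ hb (by have := two_le_rk hτ hf h4; omega)

/-- the eigenspaces for `± 1` -/
theorem exists_dec {p : ℕ} (hp' : p.Prime) [CharP K p] (hm : m.Coprime p) (hu : u * star u = 1) (hp : u ^ m = 1) :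
    ∃ e f w : h.EB, CI u e ∧ CI u f ∧ e * f = 0 ∧ Fintype.card K ^ (rk h e ^ 2) ≤ pA u e ∧ Fintype.card K ^ (rk h f ^ 2) ≤ pA u f ∧
      w * u = u * w ∧ w * (u - star u) = 1 - (e + f) ∧ rk h e + rk h f = if p = 2 then finrank K (LinearMap.ker (h.ap u - 1)) else
        finrank K (LinearMap.ker (h.ap u - 1)) + finrank K (LinearMap.ker (h.ap (-u) - 1)) := by
  have h0 : ∀ {k : ℕ}, k.Coprime p → (k : K) ≠ 0 := cast_ne hp'
  have h1 : ∀ {k : ℕ} {x : h.EB}, (k : K) ≠ 0 → x ^ k = 1 → rk h (e0 h k x) = finrank K (LinearMap.ker (h.ap x - 1)) := fun a b => by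
    rw [rk, (e0_proj a b).range]
  split_ifs with t
  · obtain ⟨w, h2, h3⟩ := exists_w (h0 hm) hu hp (Nat.coprime_two_right.1 (t ▸ hm))
    have h4 : rk h 0 = 0 := by rw [rk, show h.ap 0 = 0 from rfl, LinearMap.range_zero, finrank_bot]
    exact ⟨_, 0, w, e0_ci (h0 hm) hu hp, CI.zero u, mul_zero _, h1 (h0 hm) hp ▸ le_pA_e0 (h0 hm) hp, h4 ▸ pA_pos u 0, h2,
      by rw [add_zero, h3], by rw [h4, h1 (h0 hm) hp, add_zero]⟩
  have h2 := h0 ((Nat.coprime_primes Nat.prime_two hp').2 (Ne.symm t))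
  have h3 : ((2 * m : ℕ) : K) ≠ 0 := by rw [Nat.cast_mul]; exact mul_ne_zero h2 (h0 hm)
  have h4 : u ^ (2 * m) = 1 := by rw [pow_mul', hp, one_pow]
  have h5 : (-u) ^ (2 * m) = 1 := by rw [(even_two_mul m).neg_pow, h4]
  have h6 : -u * star (-u) = 1 := by rw [star_neg, neg_mul_neg, hu]
  have he := e0_ci h3 hu h4
  have hf' := e0_ci h3 h6 h5
  have hf : CI u (e0 h (2 * m) (-u)) := ⟨hf'.1, hf'.2, fun x hx => hf'.3 x (by rw [mul_neg, neg_mul, hx])⟩
  have h7 : ∀ {v : V}, v + v = 0 → v = 0 := fun k => (smul_eq_zero.1 ((Nat.cast_smul_eq_nsmul K 2 _).trans ((two_nsmul _).trans k))).resolve_left h2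
  have h8 := he.comm.trans (mul_e0 h4)
  have h9 := hf'.comm.trans (mul_e0 h5)
  have h10 : e0 h (2 * m) u * e0 h (2 * m) (-u) = 0 := h.ap_ext fun v => h7 (by
    have k := congrArg (e0 h (2 * m) u * ·) (mul_e0 h5)
    simp only [← mul_assoc, mul_neg, h8, neg_mul] at k
    rw [← h.ap_add, neg_eq_iff_add_eq_zero.1 k]
    rfl)
  have h11 : ∀ {e x : h.EB}, e * x = e → x * star x = 1 → e * (x - star x) = 0 := fun {e x} a b => by
    rw [mul_sub, ← a, mul_assoc _ x (star x), b, mul_one, a, a, sub_self]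
  obtain ⟨w, k1, k2⟩ := exists_w' hu (he.add hf h10) (by
    rw [add_mul, h11 h8 hu, zero_add, ← neg_eq_zero, ← mul_neg, ← h11 h9 h6, star_neg, neg_sub, neg_sub_neg]) fun v a b => by
      have k1 : ∀ {x y : h.EB}, CI u x → x * (e0 h (2 * m) u + e0 h (2 * m) (-u)) = x → (y = u ∨ y = -u) → h.ap x (v + h.ap y v) = 0 := by
        intro x y c d t
        have k2 : h.ap x v = 0 := by rw [← d, h.ap_mul, a, map_zero]
        rw [map_add, k2, zero_add, ← h.ap_mul, c.cen y (by rcases t with rfl | rfl <;> simp), h.ap_mul, k2, map_zero]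
      have k2 := k1 he (by rw [mul_add, he.idem, h10, add_zero]) (Or.inl rfl)
      have k3 := k1 hf (by rw [mul_add, hf.idem, ← he.cen _ hf.comm, h10, zero_add]) (Or.inr rfl)
      rw [(e0_proj h3 h4).map_id _ (sub_eq_zero.2 (by rw [map_add, b, add_comm]; rfl))] at k2
      rw [(e0_proj h3 h5).map_id _ (sub_eq_zero.2 (by
        show -h.ap u (v + -h.ap u v) = v + -h.ap u v
        rw [map_add, map_neg, b, neg_add, neg_neg, add_comm]))] at k3
      exact h7 (by rw [← add_zero (v + v), ← add_neg_cancel (h.ap u v), add_add_add_comm, k2, zero_add]; exact k3.trans (add_neg_cancel _).symm)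
  refine ⟨_, _, w, he, hf, h10, h1 h3 h4 ▸ le_pA_e0 h3 h4, h1 h3 h5 ▸ (le_pA_e0 h3 h5).trans_eq ?_, k1, k2, by rw [h1 h3 h4, h1 h3 h5]⟩
  exact Nat.card_congr (Equiv.subtypeEquivRight fun x => by rw [mul_neg, neg_mul, neg_inj])

end

variable [Nontrivial V] {m p : ℕ}

/-- reduction to the eigenspaces for `± 1` -/
theorem ss_bil (hτ : ∀ c, h.τ c = c) (hp' : p.Prime) [CharP K p] (hm : m.Coprime p) (F : FR h.EB) {u : h.EBˣ} (hu : u ∈ F.Iso)
    (hp : u ^ m = 1) {d : ℕ} (hd : cA (u : h.EB) = Fintype.card K ^ d) :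
    ∃ (e f : h.EB) (he : CI (u : h.EB) e) (hf : CI (u : h.EB) f) (s ν : ℕ), rk h e ^ 2 + rk h f ^ 2 + 2 * s ≤ d ∧
      rk h e + rk h f + 2 * ν ≤ finrank K V ∧ (rk h e + rk h f = if p = 2 then finrank K (LinearMap.ker (h.ap u - 1)) else
        finrank K (LinearMap.ker (h.ap u - 1)) + finrank K (LinearMap.ker (h.ap (-u) - 1))) ∧
      ∀ (X : Subgroup _) (Y : Subgroup _), (∀ x ∈ F.Iso, ∀ hx, rs he x hx ∈ X ∧ rs hf x hx ∈ Y) →
        cO F u * Fintype.card K ^ ν ≤ Nat.card X * Nat.card Y * Fintype.card K ^ s * (Fintype.card K + 1) ^ ν := by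
  have hp2 : (u : h.EB) ^ m = 1 := by rw [← Units.val_pow_eq_pow_val, hp, Units.val_one]
  obtain ⟨e, f, w, he, hf, h1, h2, h3, h4, h5, h6⟩ := exists_dec hp' hm hu.1 hp2
  have h0 := he.add hf h1
  have h0' := (CI.one _).sub h0 (one_mul _)
  have h7 := (CI.one _).orth h0 (one_mul _)
  obtain ⟨s, k1, k2⟩ := rest hτ (cast_ne hp' hm) hu.1 hp2 h0' h4 h5
  refine ⟨e, f, he, hf, s, _, ?_, ?_, h6, fun X Y k => le_trans (Nat.mul_le_mul_right _ ?_)
    (((mul_assoc _ _ _).trans_le (Nat.mul_le_mul_left (Nat.card X * Nat.card Y) k2)).trans_eq (mul_assoc _ _ _).symm)⟩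
  · have h8 := (Nat.mul_le_mul_right _ ((Nat.mul_le_mul h2 h3).trans (pA_add he hf h1))).trans (pA_add h0 h0' h7)
    rwa [add_sub_cancel, pA_one, hd, k1, ← pow_mul', ← pow_add, ← pow_add, Nat.pow_le_pow_iff_right Fintype.one_lt_card] at h8
  · have h8 := rk_add he hf h1
    have h9 := (rk_add h0 h0' h7).trans (Submodule.finrank_le _)
    omega
  · have : ∀ e : h.EB, Finite (LinearMap.range (h.ap e) ≃ₗ[K] LinearMap.range (h.ap e)) := fun _ =>
      Finite.of_injective _ DFunLike.coe_injective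
    rw [cO, pU, ← Nat.card_prod, ← Nat.card_prod]
    refine Nat.card_le_card_of_injective (fun x => ((⟨_, (k _ x.2.1 (congrArg Units.val x.2.2)).1⟩, ⟨_, (k _ x.2.1 (congrArg Units.val x.2.2)).2⟩),
      ⟨(1 - (e + f)) * x.1, ⟨h0'.mul_comm' (congrArg Units.val x.2.2), by rw [← mul_assoc, h0'.idem]⟩,
        h0'.uni (by rw [x.2.1.1, mul_one])⟩)) fun x y t => Subtype.ext (Units.ext ?_)
    have h8 := Subtype.mk.inj (Prod.mk.inj t).2
    have h9 := Prod.mk.inj (Prod.mk.inj t).1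
    rwa [sub_mul, sub_mul, one_mul, one_mul, h0.cen _ (congrArg Units.val x.2.2), h0.cen _ (congrArg Units.val y.2.2), mul_add, mul_add,
      rs_eq he (Subtype.mk.inj h9.1), rs_eq hf (Subtype.mk.inj h9.2), sub_left_inj] at h8

/-- **symplectic groups** -/
theorem ss_Sp {F : FR h.EB} (hS : IsSp h F) (hp' : p.Prime) [CharP K p] (hm : m.Coprime p) {u : h.EBˣ} (hu : u ∈ F.Iso)
    (hp : u ^ m = 1) {d a : ℕ} (hd : cA (u : h.EB) = Fintype.card K ^ d) (ha : a = if p = 2 then finrank K (LinearMap.ker (h.ap u - 1))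
      else finrank K (LinearMap.ker (h.ap u - 1)) + finrank K (LinearMap.ker (h.ap (-u) - 1))) :
    cO F u * Fintype.card K ^ (finrank K V / 2) ≤ Fintype.card K ^ ((d + a) / 2) * (Fintype.card K + 1) ^ (finrank K V / 2) := by
  obtain ⟨e, f, he, hf, s, ν, h1, h2, h3, h4⟩ := ss_bil hS.1 hp' hm F hu hp hd
  have h5 : ∀ {e : h.EB}, CI (u : h.EB) e → Nat.card (Vec.Isom K fun v w : LinearMap.range (h.ap e) => h.b v w) ≤
      Fintype.card K ^ (rk h e + 1).choose 2 := fun {e} he => by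
    rw [← Nat.card_eq_fintype_card]
    exact card_alt (LinearMap.mk₂ K (fun v w : LinearMap.range (h.ap e) => h.b v w) (fun _ _ _ => h.add_left _ _ _)
      (fun _ _ _ => h.smul_left _ _ _) (fun _ _ _ => h.add_right _ _ _) fun c v w => (h.smul_right c v w).trans (by rw [hS.1]; rfl))
      (fun v => hS.2.1 v) fun v hv => Subtype.ext (nd_rg he v v.2 fun w hw => by
        rw [h.swap, show h.b v w = 0 from hv ⟨w, hw⟩, map_zero, mul_zero])
  refine up_le ((h4 (Vec.Isom K fun v w => h.b v w) (Vec.Isom K fun v w => h.b v w) fun x hx _ =>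
    ⟨fun v w => b_of_unit hx.1 v w, fun v w => b_of_unit hx.1 v w⟩).trans
    (Nat.mul_le_mul_right _ ((Nat.mul_le_mul_right _ (Nat.mul_le_mul (h5 he) (h5 hf))).trans ?_))) (by omega)
  have h6 := ch_succ (rk h e)
  have h7 := ch_succ (rk h f)
  rw [← pow_add, ← pow_add]
  exact Nat.pow_le_pow_right Fintype.card_pos (by omega)

/-- **orthogonal groups** -/
theorem ss_O {F : FR h.EB} {Q : QuadraticForm K V} (o : IsO h F Q) (hp' : p.Prime) [CharP K p] (hm : m.Coprime p) {u : h.EBˣ}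
    (hu : u ∈ F.Iso) (hp : u ^ m = 1) {d a : ℕ} (hd : cA (u : h.EB) = Fintype.card K ^ d)
    (ha : a = if p = 2 then finrank K (LinearMap.ker (h.ap u - 1))
      else finrank K (LinearMap.ker (h.ap u - 1)) + finrank K (LinearMap.ker (h.ap (-u) - 1))) :
    cO F u * Fintype.card K ^ (finrank K V / 2) ≤ 4 * Fintype.card K ^ ((d - a) / 2) * (Fintype.card K + 1) ^ (finrank K V / 2) := by
  obtain ⟨e, f, he, hf, s, ν, h1, h2, h3, h4⟩ := ss_bil o.1 hp' hm F hu hp hd
  have h5 : ∀ {e : h.EB}, CI (u : h.EB) e → Nat.card (O (Q.comp (LinearMap.range (h.ap e)).subtype)) * Fintype.card K ^ (rk h e / 2) ≤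
      2 * Fintype.card K ^ (rk h e).choose 2 * (Fintype.card K + 1) ^ (rk h e / 2) := fun {e} he => by
    obtain ⟨k1, k2⟩ := card_O (Q.comp (LinearMap.range (h.ap e)).subtype) fun x hx => Subtype.ext (nd_rg he x x.2 fun w hw => by
      rw [o.2.1, QuadraticMap.polar_comm]
      exact hx ⟨w, hw⟩)
    rw [Nat.card_eq_fintype_card (α := K)] at k1 k2
    by_cases t : rk h e = 2
    · exact up_le (a := 1) (by rw [pow_one, pow_one, mul_right_comm]; exact k1) (by omega)
    · exact up_le (a := 0) (Nat.mul_le_mul_right _ (k2 t)) (Nat.zero_le _)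
  have h6 := h4 (O (Q.comp (LinearMap.range (h.ap e)).subtype)) (O (Q.comp (LinearMap.range (h.ap f)).subtype)) fun x hx _ =>
    ⟨fun v => (SB.Tor.mem_Iso_O o _).1 hx v, fun v => (SB.Tor.mem_Iso_O o _).1 hx v⟩
  refine up_le (a := ν + rk h e / 2 + rk h f / 2) ?_ (by omega)
  have h7 := ch_two (rk h e)
  have h8 := ch_two (rk h f)
  have h9 := Nat.pow_le_pow_right (Fintype.card_pos (α := K)) (show (rk h e).choose 2 + (rk h f).choose 2 + s ≤ (d - a) / 2 by omega)
  have h10 := Nat.mul_le_mul_right (Fintype.card K ^ s * (Fintype.card K + 1) ^ ν) (Nat.mul_le_mul (h5 he) (h5 hf))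
  calc _ = cO F u * Fintype.card K ^ ν * (Fintype.card K ^ (rk h e / 2) * Fintype.card K ^ (rk h f / 2)) := by ring
    _ ≤ _ := Nat.mul_le_mul_right _ h6
    _ = _ := by ring
    _ ≤ _ := h10
    _ = 4 * Fintype.card K ^ ((rk h e).choose 2 + (rk h f).choose 2 + s) * (Fintype.card K + 1) ^ (ν + rk h e / 2 + rk h f / 2) := by ring
    _ ≤ _ := Nat.mul_le_mul_right _ (Nat.mul_le_mul_left _ h9)

end Cfsg.Agent.N2C.Sz
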