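import Cfsg.Agent.SB.C2.Fix
import Cfsg.Agent.H955.QM3
import Cfsg.Agent.SB.Cl.Cent
import Cfsg.Agent.S0245
import Cfsg.Agent.S0288

/-!
# N2, size lemma: the star-simple rings (helper96)

`|Iso| ≤ c |L|` with `c = 1` (linear, symplectic), `(q+1)/q` (unitary), `2` or `2 (q+1)/q` (orthogonal), and the orders of `L`.
-/

set_option autoImplicit false
set_option linter.unusedSectionVars false

namespace Cfsg.Agent.N2C.Sz

open Cfsg Cfsg.Agent.DS.Cl Cfsg.Agent.DS.Cl.P5 Cfsg.Agent.SB.C2 Module Finset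
open Cfsg.Agent.LieClassical.OrthCore (O Nondeg)

/-! ### numbers -/

theorem ch_succ (n : ℕ) : 2 * (n + 1).choose 2 = n ^ 2 + n := by
  induction n with
  | zero => rfl
  | succ n ih => rw [Nat.choose_succ_succ' (n + 1) 1, Nat.choose_one_right, mul_add, ih]; ring

theorem ch_add (n : ℕ) : (n + 1).choose 2 = n.choose 2 + n := by
  rw [Nat.choose_succ_succ' n 1, Nat.choose_one_right, add_comm]

theorem ch_two (n : ℕ) : 2 * n.choose 2 + n = n ^ 2 := by
  have h1 := ch_succ n
  have h2 := ch_add n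
  omega

theorem prod_le (q m : ℕ) : ∏ i ∈ range m, (q ^ (2 * (i + 1)) - 1) ≤ q ^ (m ^ 2 + m) := by
  induction m with
  | zero => simp
  | succ m ih =>
    rw [prod_range_succ, show (m + 1) ^ 2 + (m + 1) = m ^ 2 + m + 2 * (m + 1) by ring, pow_add]
    exact Nat.mul_le_mul ih (Nat.sub_le _ _)

theorem pair_le {a b : ℕ} (h : a ≤ b) : (a - 1) * (b + 1) ≤ a * b := by
  rcases a with _ | a
  · simp
  · rw [Nat.add_sub_cancel]
    nlinarith

theorem gu_le {q : ℕ} (hq : 1 ≤ q) (n : ℕ) :
    (∏ i ∈ range n, if Even i then q ^ (i + 1) + 1 else q ^ (i + 1) - 1) * q ≤ (q + 1) * q ^ (n + 1).choose 2 := by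
  have h1 : ∀ j, (∏ i ∈ range (2 * j + 1), if Even i then q ^ (i + 1) + 1 else q ^ (i + 1) - 1) * q ≤
      (q + 1) * q ^ (2 * j + 1 + 1).choose 2 := fun j => by
    induction j with
    | zero => simp
    | succ j ih =>
      rw [show 2 * (j + 1) + 1 = 2 * j + 1 + 1 + 1 by ring, prod_range_succ, prod_range_succ, if_neg (by simp [parity_simps]),
        if_pos (by simp [parity_simps]), ch_add (2 * j + 1 + 1 + 1), ch_add (2 * j + 1 + 1)]
      have h2 := Nat.mul_le_mul ih (pair_le (Nat.pow_le_pow_right hq (Nat.le_add_right (2 * j + 1 + 1) 1)))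
      calc _ = _ := by ring
        _ ≤ _ := h2
        _ = _ := by ring
  rcases n with _ | n
  · simp
  obtain ⟨j, rfl | rfl⟩ := Nat.even_or_odd' n
  · exact h1 j
  · rw [prod_range_succ, if_neg (by simp [parity_simps]), ch_add (2 * j + 1 + 1)]
    have h2 := Nat.mul_le_mul (h1 j) (Nat.sub_le (q ^ (2 * j + 1 + 1)) 1)
    calc _ = _ := by ring
      _ ≤ _ := h2
      _ = _ := by ring

/-! ### isometry groups of spaces -/

section vec

variable {K V : Type} [Field K] [Fintype K] [AddCommGroup V] [Module K V] [FiniteDimensional K V]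

theorem card_alt (b : LinearMap.BilinForm K V) (hb : b.IsAlt) (hs : b.SeparatingLeft) :
    Nat.card (Vec.Isom K fun v w => b v w) ≤ Nat.card K ^ (finrank K V + 1).choose 2 := by
  obtain ⟨m, l, c, -, -, -, h4⟩ := Cfsg.Agent.S0752.result b hb
  have hl : l = 0 := by
    by_contra hl
    exact c.ne_zero _ (hs _ (h4 ⟨0, Nat.pos_of_ne_zero hl⟩))
  subst hl
  have hm : finrank K V = 2 * m := by
    rw [finrank_eq_card_basis c]
    simp [two_mul]
  obtain ⟨e, he⟩ := ClassicalGeometry.SympIso.exists_linearEquiv_sympForm b hb hs hm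
  obtain ⟨φ⟩ := Vec.exists_equiv e (sympForm m K) (fun v w => b v w) he
  let f : Matrix.symplecticGroup (Fin m) K →*
      preserving (Units.coeHom (Matrix (Fin m ⊕ Fin m) (Fin m ⊕ Fin m) K)) (sympForm m K) :=
    (Matrix.symplecticGroup (Fin m) K).subtype.toHomUnits.codRestrict _ fun x =>
      ClassicalGeometry.SympBasic.mem_symplecticGroup_iff.1 x.2
  have h1 := Nat.card_le_card_of_surjective f fun g =>
    ⟨⟨g.1, ClassicalGeometry.SympBasic.mem_symplecticGroup_iff.2 g.2⟩, Subtype.ext (Units.ext rfl)⟩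
  rw [S0245.result rfl m, Nat.card_congr φ.toEquiv] at h1
  have h2 := ch_succ (2 * m)
  rw [hm, Nat.card_eq_fintype_card (α := K), show (2 * m + 1).choose 2 = m ^ 2 + (m ^ 2 + m) by nlinarith, pow_add]
  exact h1.trans (Nat.mul_le_mul_left _ (prod_le _ m))

theorem card_herm {σ : K →+* K} (hσ : σ ≠ RingHom.id K) (hσ2 : ∀ a, σ (σ a) = a) (b : V →ₛₗ[σ] V →ₗ[K] K) (hb : b.IsSymm)
    (hs : b.SeparatingLeft) : ∃ q, Nat.card K = q ^ 2 ∧
      Nat.card (Vec.Isom K fun v w => b v w) * q ≤ (q + 1) * q ^ (finrank K V ^ 2) := by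
  obtain ⟨q, -, hq, hσq⟩ := H324.FC.exists_q (RingEquiv.ofRingHom σ σ (RingHom.ext hσ2) (RingHom.ext hσ2)) hσ2
    (ClassicalGeometry.InvolutiveNorm.exists_sigma_ne hσ)
  have hσq' : ∀ x, σ x = x ^ q := hσq
  refine ⟨q, hq, ?_⟩
  rw [Nat.card_eq_fintype_card] at hq
  obtain ⟨c, hc⟩ := ClassicalGeometry.HermOrthonormal.exists_orthonormal_basis hσ hσ2 b hb hs
  obtain ⟨φ⟩ := Vec.exists_equiv c.equivFun.symm (hermForm _ K q) (fun v w => b w v) fun u v => by
    simp only [Module.Basis.equivFun_symm_apply, map_sum, LinearMap.sum_apply, LinearMap.map_smulₛₗ, map_smul,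
      LinearMap.smul_apply, hc, smul_eq_mul, mul_ite, mul_one, mul_zero, Finset.sum_ite_eq', Finset.mem_univ, if_true,
      hσq', hermForm]
  have h1 : (Vec.Isom K fun v w => b w v) = Vec.Isom K fun v w => b v w := by
    ext g
    exact ⟨fun h v w => h w v, fun h v w => h w v⟩
  have ψ : GU (finrank K V) K q ≃* Vec.Isom K fun v w => b v w := φ.trans (MulEquiv.subgroupCongr h1)
  have h2 : 1 ≤ q := Nat.pos_of_ne_zero fun h => by
    have := Fintype.card_pos (α := K)
    rw [hq, h] at this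
    simp at this
  have h3 := ch_two (finrank K V)
  rw [← Nat.card_congr ψ.toEquiv, S0277.result hq, ← Nat.choose_two_right, mul_assoc,
    show finrank K V ^ 2 = (finrank K V).choose 2 + (finrank K V + 1).choose 2 by rw [ch_add]; omega, pow_add,
    mul_left_comm (q + 1)]
  exact Nat.mul_le_mul_left _ (gu_le h2 _)

theorem card_O (Q : QuadraticForm K V) (hQ : Nondeg Q) :
    Nat.card (O Q) * Nat.card K ≤ 2 * (Nat.card K + 1) * Nat.card K ^ (finrank K V).choose 2 ∧
      (finrank K V ≠ 2 → Nat.card (O Q) ≤ 2 * Nat.card K ^ (finrank K V).choose 2) := by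
  have hQ' : (QuadraticMap.polarBilin Q).Nondegenerate :=
    ⟨fun x hx => hQ x hx, fun x hx => hQ x fun y => by rw [QuadraticMap.polar_comm]; exact hx y⟩
  have hq : 1 ≤ Nat.card K := Nat.card_pos
  have key : Nat.card (O Q) ≤ 2 * Nat.card K ^ (finrank K V).choose 2 →
      Nat.card (O Q) * Nat.card K ≤ 2 * (Nat.card K + 1) * Nat.card K ^ (finrank K V).choose 2 ∧
      (finrank K V ≠ 2 → Nat.card (O Q) ≤ 2 * Nat.card K ^ (finrank K V).choose 2) := fun h => ⟨by nlinarith, fun _ => h⟩
  obtain ⟨m, hm | hm⟩ := Nat.even_or_odd' (finrank K V)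
  · rcases m with _ | m
    · have : Subsingleton V := finrank_zero_iff.1 hm
      have h1 : Nat.card (O Q) ≤ 1 :=
        Finite.card_le_one_iff_subsingleton.2 ⟨fun a b => Subtype.ext (LinearEquiv.ext fun _ => Subsingleton.elim _ _)⟩
      exact key (h1.trans (Nat.mul_pos two_pos (Nat.pow_pos hq)))
    have h2 := ch_two (2 * (m + 1))
    have h3 : (2 * (m + 1)).choose 2 = (m + 1) * m + (m + 1) + (m ^ 2 + m) := by nlinarith
    have h4 := prod_le (Nat.card K) m
    rcases H174.exists_std (Nat.le_add_left 1 m) hm Q hQ' with ⟨g, hg⟩ | ⟨ζ, g, hζ, hg⟩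
    · obtain ⟨φ⟩ := Vec.O_equiv g _ Q one_ne_zero fun v => by rw [one_mul, hg]
      refine key ?_
      rw [← Nat.card_congr φ.toEquiv, S0287.result Nat.card_eq_fintype_card.symm _ (Nat.le_add_left 1 m), hm, h3,
        pow_add _ _ (m ^ 2 + m), pow_add _ _ (m + 1), Nat.add_sub_cancel, ← mul_assoc, ← mul_assoc]
      exact Nat.mul_le_mul (Nat.mul_le_mul_left _ (Nat.sub_le _ _)) h4
    · obtain ⟨φ⟩ := Vec.O_equiv g _ Q one_ne_zero fun v => by rw [one_mul, hg]
      have h5 := S0288.result (F := K) Nat.card_eq_fintype_card.symm _ (Nat.le_add_left 1 m) 1 ζ fun z₁ z₂ h => by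
        by_cases h2 : z₂ = 0
        · rw [h2] at h
          exact ⟨by simpa using h, h2⟩
        · refine absurd ?_ (hζ (z₁ / z₂))
          field_simp
          linear_combination h
      rw [Nat.card_congr φ.toEquiv, Nat.add_sub_cancel] at h5
      rcases m with _ | m
      · refine ⟨?_, fun h => absurd hm h⟩
        rw [h5, hm]
        simp
      refine key ?_
      have h6 := ch_two (2 * (m + 1 + 1))
      rw [h5, hm, prod_range_succ', show (2 * (m + 1 + 1)).choose 2 =
        (m + 1 + 1) * (m + 1) + (2 + (m + 1 + 1)) + (m ^ 2 + m + 2 * m) by nlinarith]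
      have h7 : ∏ i ∈ range m, (Nat.card K ^ (2 * (i + 1 + 1)) - 1) ≤ Nat.card K ^ (m ^ 2 + m + 2 * m) := by
        clear h6 h5 h4 h3 h2 φ hg g hm
        induction m with
        | zero => simp
        | succ m ih =>
          rw [prod_range_succ, show (m + 1) ^ 2 + (m + 1) + 2 * (m + 1) = m ^ 2 + m + 2 * m + 2 * (m + 1 + 1) by ring, pow_add]
          exact Nat.mul_le_mul ih (Nat.sub_le _ _)
      have h8 := Nat.mul_le_mul_left (2 * Nat.card K ^ ((m + 1 + 1) * (m + 1)))
        (Nat.mul_le_mul (pair_le (Nat.pow_le_pow_right hq (show 2 ≤ m + 1 + 1 by omega))) h7)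
      calc _ = _ := by ring
        _ ≤ _ := h8
        _ = _ := by ring
  · have h8 : (2 : K) ≠ 0 := fun h9 => by
      obtain ⟨c, -, h4, -⟩ := Cfsg.Agent.S2618.result hm Q hQ'
      refine c.ne_zero (.inl ()) (hQ'.1 _ fun y => LinearMap.congr_fun (c.ext fun i => ?_ :
        QuadraticMap.polarBilin Q (c (.inl ())) = 0) y)
      rcases i with _ | i | i
      · rw [QuadraticMap.polarBilin_apply_apply, QuadraticMap.polar_self, two_smul, ← two_mul, h9, zero_mul, LinearMap.zero_apply]
      · exact (h4 i).1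
      · exact (h4 i).2
    have h2 := ch_succ (2 * m)
    refine key ?_
    rw [H955.card_O_odd h8 hQ hm, hm, show (2 * m + 1).choose 2 = m ^ 2 + (m ^ 2 + m) by nlinarith, pow_add, ← mul_assoc]
    exact Nat.mul_le_mul_left _ (prod_le _ m)

/-- the number of symmetric forms -/
theorem card_sym (b : LinearMap.BilinForm K V) (hr : ∀ x, (∀ v, b v x = 0) → x = 0) :
    Nat.card {X : End K V // ∀ v w, b v (X w) = b w (X v)} = Nat.card K ^ (finrank K V + 1).choose 2 := by
  let c := Module.finBasis K V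
  let Φ : End K V → Fin (finrank K V) → Fin (finrank K V) → K := fun X i j => b (c i) (X (c j))
  have h1 : Function.Injective Φ := fun X Y h => c.ext fun j => sub_eq_zero.1 (hr _ fun v =>
    LinearMap.congr_fun (c.ext fun i => by
      show b (c i) (X (c j) - Y (c j)) = 0
      rw [map_sub, sub_eq_zero]
      exact congrFun (congrFun h i) j : LinearMap.flip b (X (c j) - Y (c j)) = 0) v)
  have h2 : Function.Bijective Φ := h1.bijective_of_nat_card_le (by
    rw [card_end, Nat.card_fun, Nat.card_fun, ← pow_mul, Nat.card_eq_fintype_card (α := Fin _), Fintype.card_fin, sq])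
  rw [Nat.card_congr ((Equiv.subtypeEquiv (p := fun X : End K V => ∀ v w, b v (X w) = b w (X v))
    (q := fun f => ∀ i j, f i j = f j i) (Equiv.ofBijective Φ h2) fun X =>
    ⟨fun h i j => h _ _, fun h v w => LinearMap.congr_fun₂ (LinearMap.ext_basis c c fun i j => h i j :
      b.compl₂ X = (b.compl₂ X).flip) v w⟩).trans Sym2.lift), Nat.card_fun, Nat.card_eq_fintype_card (α := Sym2 _), Sym2.card,
    Fintype.card_fin]

end vec

/-! ### rings -/

variable {A : Type} [Ring A] [StarRing A] [Finite A]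

/-- the symmetric elements -/
def Sy (A : Type) [Ring A] [StarRing A] : AddSubgroup A where
  carrier := {x | star x = x}
  add_mem' := fun {a b} (ha : star a = a) (hb : star b = b) => show star (a + b) = a + b by rw [star_add, ha, hb]
  zero_mem' := star_zero A
  neg_mem' := fun {a} (ha : star a = a) => show star (-a) = -a by rw [star_neg, ha]

theorem card_Lmin : Nat.card (Lmin A) * Nat.card (Sy A) = Nat.card A := by
  let φ : A →+ A := AddMonoidHom.id A - (starAddEquiv : A ≃+ A).toAddMonoidHom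
  have h1 : φ.range = Lmin A := AddSubgroup.ext fun x => ⟨fun ⟨a, h⟩ => ⟨a, h.symm⟩, fun ⟨a, h⟩ => ⟨a, h.symm⟩⟩
  have h2 : φ.ker = Sy A := AddSubgroup.ext fun x => sub_eq_zero.trans eq_comm
  rw [← h1, ← h2, ← AddSubgroup.index_ker, AddSubgroup.index_mul_card]

/-- a central element `z` with `z - star z` invertible -/
theorem card_L_sq (F : FR A) {z w : A} (hz : z ∈ Subring.center A) (hw : w * (z - star z) = 1) :
    Nat.card F.L ^ 2 = Nat.card A := by
  have hd : z - star z ∈ Subring.center A := Subring.sub_mem _ hz (star_cen hz)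
  have hw' : (z - star z) * w = 1 := by rw [← cen_comm hd, hw]
  have hc : w ∈ Subring.center A := Subring.mem_center_iff.2 fun a => by
    rw [← one_mul (a * w), ← hw, mul_assoc, ← mul_assoc (z - star z), ← cen_comm hd a, mul_assoc a, hw', mul_one]
  have hs : star (z - star z) = -(z - star z) := by rw [star_sub, star_star, neg_sub]
  have hs' : star w = -w := by
    have h1 := congrArg star hw
    rw [star_mul, hs, star_one, neg_mul, neg_eq_iff_eq_neg] at h1
    rw [← one_mul (star w), ← hw, mul_assoc, h1, mul_neg, mul_one]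
  have h1 : w * z + star (w * z) = 1 := by
    rw [star_mul, hs', mul_neg, cen_comm hc (star z), ← sub_eq_add_neg, ← mul_sub, hw]
  have h2 := F.L_eq (Subring.mul_mem _ hc hz) h1
  have h3 : Nat.card (Sy A) = Nat.card (Lmax A) := Nat.card_congr
    ⟨fun x => ⟨w * x, show star (w * x) = -(w * x) by rw [star_mul, hs', show star x.1 = x.1 from x.2, mul_neg, cen_comm hc]⟩,
      fun x => ⟨(z - star z) * x, show star (_ * x.1) = _ by
        rw [star_mul, hs, show star x.1 = -x.1 from x.2, neg_mul_neg, cen_comm hd]⟩,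
      fun x => Subtype.ext (by simp only; rw [← mul_assoc, hw', one_mul]),
      fun x => Subtype.ext (by simp only; rw [← mul_assoc, hw, one_mul])⟩
  rw [← card_Lmin (A := A), h3, Lmin_eq_Lmax (Subring.mul_mem _ hc hz) h1, h2, sq]

theorem SS_unit (h : SS A) {z : A} (hz : z ∈ Subring.center A) (hne : star z ≠ z) : ∃ w, w * (z - star z) = 1 := by
  have ht : z - star z ∈ Subring.center A := Subring.sub_mem _ hz (star_cen hz)
  obtain ⟨u, hu⟩ := h.isUnit_of_cen (Subring.mul_mem _ ht ht) (by rw [star_mul, star_sub, star_star, ← neg_mul_neg, neg_sub])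
    fun h1 => hne (sub_eq_zero.1 (SB.Cl.SS_eq_zero h ht ⟨2, by rw [sq, h1]⟩)).symm
  exact ⟨(u⁻¹ : Aˣ) * (z - star z), by rw [mul_assoc, ← hu, Units.inv_mul]⟩

/-- linear groups -/
theorem iso_le_eps (F : FR A) {ε : A} (hε : Eps ε) : Nat.card F.Iso ≤ Nat.card F.L := by
  refine Nat.card_le_card_of_injective (fun u => ⟨_, F.sub_star_mem (ε * (u : Aˣ))⟩) fun u v e => Subtype.ext (Units.ext ?_)
  have h1 := congrArg (fun x : F.L => ε * (x : A)) e
  simp only [mul_sub, star_mul, ← mul_assoc, hε.idem] at h1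
  rw [mul_assoc, mul_assoc, hε.st.comm, hε.st.comm, ← mul_assoc, ← mul_assoc, hε.ms, zero_mul, zero_mul, sub_zero, sub_zero] at h1
  have h2 := congrArg (fun x : A => ((u : Aˣ) : A) * star x * (v : Aˣ)) h1
  simp only [star_mul, ← mul_assoc, FR.Iso.ms u.2, one_mul] at h2
  rw [mul_assoc, ← hε.st.comm, mul_assoc, ← mul_assoc (star _), FR.Iso.sm v.2, one_mul, hε.st.comm] at h2
  rw [hε.split (u : Aˣ), h1, ← hε.st.comm, ← h2, ← hε.split]

/-- **non-trivial involution on the centre** -/
theorem iso_le_nt (h : SS A) (F : FR A) {z : A} (hz : z ∈ Subring.center A) (hne : star z ≠ z) {Q : ℕ}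
    (hQ : Q ^ 2 ≤ Nat.card (Subring.center A)) : Nat.card F.Iso * Q ≤ (Q + 1) * Nat.card F.L := by
  rcases exists_model h with ⟨K, _, _, n, π, -, hπ⟩ | ⟨K, _, _, n, e, σ, b, hn, hσ, hσ2, hb, hs, hadj⟩ |
    ⟨K, _, _, n, e, b, hn, hb, hs, hadj⟩
  · obtain ⟨ε, hε, -⟩ := L_eps hπ
    have := iso_le_eps F hε
    nlinarith
  · have : Nonempty (Fin n) := ⟨⟨0, hn⟩⟩
    have hr : ∀ x, (∀ v, b v x = 0) → x = 0 := fun x hx => hs x fun v => by rw [← hb.eq, hx, map_zero]
    obtain ⟨c, hc, hc1⟩ := h.exists_trace_one hz hne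
    obtain ⟨φ⟩ := equiv_of e (U := F.Iso) (X := Vec.Isom K fun v w => b v w) fun u =>
      ⟨fun hu => (unitary_iff hr hadj u).1 hu.1, fun hu => mem_Iso_of_max (F.L_eq hc hc1) ((unitary_iff hr hadj u).2 hu)⟩
    obtain ⟨q, hq, h1⟩ := card_herm hσ hσ2 b hb hs
    obtain ⟨w, hw⟩ := SS_unit h hz hne
    have h2 := card_L_sq F hz hw
    rw [Nat.card_congr e.toEquiv, card_end, hq, ← pow_mul, mul_comm, pow_mul] at h2
    rw [Nat.card_congr φ.toEquiv, ← Nat.pow_left_injective two_ne_zero h2] at h1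
    rw [card_center e, hq] at hQ
    have h3 := lt_of_lt_of_eq (Nat.card_pos (α := K)) hq
    have h4 := (Nat.pow_le_pow_iff_left two_ne_zero).1 hQ
    refine Nat.le_of_mul_le_mul_right ?_ (Nat.pos_of_ne_zero fun h0 => by simp [h0] at h3 : 0 < q)
    nlinarith [Nat.mul_le_mul_right Q h1, Nat.mul_le_mul_right (Nat.card F.L) h4]
  · have : Nonempty (Fin n) := ⟨⟨0, hn⟩⟩
    obtain ⟨c, rfl⟩ := exists_smul e hz
    exact absurd (star_smul_one (fun x hx => hs x fun v => by
      rcases hb with hb | hb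
      · rw [hb, hx]
      · rw [hb, hx, neg_zero]) hadj c) hne

section model

variable {K V : Type} [Field K] [Fintype K] [AddCommGroup V] [Module K V] [FiniteDimensional K V]
  {b : LinearMap.BilinForm K V} {e : A ≃+* End K V}

/-- **symplectic groups** -/
theorem mod_sp (hb : b.IsAlt) (hs : b.SeparatingLeft) (hadj : ∀ a v w, b (e a v) w = b v (e (star a) w)) (F : FR A)
    (hL : F.L = Lmax A) : Nat.card F.L = Nat.card K ^ (finrank K V + 1).choose 2 ∧ Nat.card F.Iso ≤ Nat.card F.L := by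
  have hr : ∀ x, (∀ v, b v x = 0) → x = 0 := fun x hx => hs x fun v => by rw [← hb.neg_eq, hx, neg_zero]
  have h1 : Nat.card F.L = Nat.card K ^ (finrank K V + 1).choose 2 := by
    rw [hL, ← card_sym b hr]
    refine Nat.card_congr (Equiv.subtypeEquiv e.toEquiv fun a => ⟨fun (ha : star a = -a) v w => ?_, fun ha => ?_⟩)
    · show b v (e a w) = b w (e a v)
      rw [← hb.neg_eq (e a v), hadj, ha, map_neg, LinearMap.neg_apply, map_neg, neg_neg]
    · refine e.injective (LinearMap.ext fun w => sub_eq_zero.1 (hr _ fun v => ?_))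
      have h2 : b v (e a w) = b w (e a v) := ha v w
      rw [map_sub, ← hadj, map_neg, LinearMap.neg_apply, map_neg, h2, hb.neg_eq, sub_self]
  obtain ⟨φ⟩ := equiv_of e (U := F.Iso) (X := Vec.Isom K fun v w => b v w) fun u =>
    ⟨fun hu => (unitary_iff hr hadj u).1 hu.1, fun hu => mem_Iso_of_max hL ((unitary_iff hr hadj u).2 hu)⟩
  exact ⟨h1, by rw [h1, ← Nat.card_congr φ.toEquiv]; exact card_alt b hb hs⟩

/-- **orthogonal groups** -/
theorem mod_o (hb : ∀ v w, b w v = b v w) (hs : b.SeparatingLeft) (hadj : ∀ a v w, b (e a v) w = b v (e (star a) w))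
    (F : FR A) (hL : F.L = Lmin A) : Nat.card F.L = Nat.card K ^ (finrank K V).choose 2 ∧
      Nat.card F.Iso * Nat.card K ≤ 2 * (Nat.card K + 1) * Nat.card F.L ∧
      (finrank K V ≠ 2 → Nat.card F.Iso ≤ 2 * Nat.card F.L) := by
  have hr : ∀ x, (∀ v, b v x = 0) → x = 0 := fun x hx => hs x fun v => by rw [hb, hx]
  have h0 : Nat.card (Sy A) = Nat.card K ^ (finrank K V + 1).choose 2 := by
    rw [← card_sym b hr]
    refine Nat.card_congr (Equiv.subtypeEquiv e.toEquiv fun a => ⟨fun (ha : star a = a) v w => ?_, fun ha => ?_⟩)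
    · show b v (e a w) = b w (e a v)
      rw [hb (e a v), hadj, ha]
    · refine e.injective (LinearMap.ext fun w => sub_eq_zero.1 (hr _ fun v => ?_))
      have h2 : b v (e a w) = b w (e a v) := ha v w
      rw [map_sub, ← hadj, h2, hb, sub_self]
  have h1 : Nat.card F.L = Nat.card K ^ (finrank K V).choose 2 := by
    have h2 := card_Lmin (A := A)
    have h3 := ch_two (finrank K V)
    rw [h0, Nat.card_congr e.toEquiv, card_end, show finrank K V ^ 2 = (finrank K V).choose 2 + (finrank K V + 1).choose 2 by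
      rw [ch_add]; omega, pow_add] at h2
    rw [hL]
    exact Nat.eq_of_mul_eq_mul_right (Nat.pow_pos Nat.card_pos) h2
  obtain ⟨Q, hQ, ⟨φ⟩⟩ := iso_O hs hb hadj F hL
  rw [h1, ← Nat.card_congr φ.toEquiv]
  exact ⟨rfl, card_O Q hQ⟩

end model

end Cfsg.Agent.N2C.Sz
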